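import Mathlib
import Cfsg.Prelude.Def_LocalEven

/-!
Alternating groups: a permutation of small support commuting with `A₅`, and minimal covers.
-/

set_option autoImplicit false

namespace Cfsg.Agent.AltMod

open Equiv

/-- `Perm (Fin a) × Perm (Fin b)` inside `Perm (Fin (a + b))` -/
noncomputable def sumHom (a b : ℕ) : Perm (Fin a) × Perm (Fin b) →* Perm (Fin (a + b)) :=
  (finSumFinEquiv.permCongrHom).toMonoidHom.comp (Perm.sumCongrHom (Fin a) (Fin b))

lemma sumHom_injective (a b : ℕ) : Function.Injective (sumHom a b) :=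
  (finSumFinEquiv.permCongrHom).injective.comp Perm.sumCongrHom_injective

lemma sign_sumHom (a b : ℕ) (x : Perm (Fin a) × Perm (Fin b)) :
    Perm.sign (sumHom a b x) = Perm.sign x.1 * Perm.sign x.2 := by
  simp [sumHom, Equiv.permCongrHom, Perm.sign_sumCongr]

/-- `A_a × A_b` inside `A_(a+b)` -/
noncomputable def altSum (a b : ℕ) :
    alternatingGroup (Fin a) × alternatingGroup (Fin b) →* alternatingGroup (Fin (a + b)) :=
  ((sumHom a b).comp ((alternatingGroup (Fin a)).subtype.prodMap
    (alternatingGroup (Fin b)).subtype)).codRestrict _ fun x => by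
      rw [Perm.mem_alternatingGroup, MonoidHom.comp_apply, sign_sumHom]
      simp [Perm.mem_alternatingGroup.1 x.1.2, Perm.mem_alternatingGroup.1 x.2.2]

lemma altSum_injective (a b : ℕ) : Function.Injective (altSum a b) := fun x y h => by
  have h' : sumHom a b ((x.1 : Perm (Fin a)), (x.2 : Perm (Fin b)))
      = sumHom a b ((y.1 : Perm (Fin a)), (y.2 : Perm (Fin b))) := congrArg Subtype.val h
  have := sumHom_injective a b h'
  rw [Prod.mk.injEq] at this
  exact Prod.ext (Subtype.ext this.1) (Subtype.ext this.2)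

lemma not_solvable_alt_five : ¬ Group.IsSolvable (alternatingGroup (Fin 5)) := by
  intro h
  refine Equiv.Perm.fin_5_not_solvable ?_
  haveI := h
  exact Group.isSolvable_of_ker_le_range (alternatingGroup (Fin 5)).subtype Perm.sign
    (by rw [Subgroup.range_subtype]; exact le_rfl)

lemma center_alt {n : ℕ} (hn : 4 ≤ n) {c : alternatingGroup (Fin n)} (hc : c ≠ 1) :
    c ∉ Subgroup.center (alternatingGroup (Fin n)) := by
  rw [alternatingGroup.center_eq_bot (by simpa using hn), Subgroup.mem_bot]
  exact hc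

/-- an element of order `p` of `A_(a+5)` centralised by a copy of `A₅` -/
lemma exists_elt {p a : ℕ} (hp : 1 < p) (τ : alternatingGroup (Fin a)) (hτ : τ ^ p = 1)
    (hτ1 : τ ≠ 1) :
    ∃ (c : alternatingGroup (Fin (a + 5))) (L : Subgroup (alternatingGroup (Fin (a + 5)))),
      c ^ p = 1 ∧ c ∉ Subgroup.center _ ∧ L ≤ Subgroup.centralizer {c} ∧
      ¬ Group.IsSolvable L ∧ Nat.card L = 60 := by
  let ι : alternatingGroup (Fin 5) →* alternatingGroup (Fin (a + 5)) :=
    (altSum a 5).comp (MonoidHom.inr _ _)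
  have hι : Function.Injective ι := (altSum_injective a 5).comp fun _ _ h => (Prod.mk.inj h).2
  refine ⟨altSum a 5 (τ, 1), ι.range, ?_, ?_, ?_, ?_, ?_⟩
  · rw [← map_pow, Prod.pow_mk, hτ, one_pow]
    exact map_one _
  · refine center_alt (by omega) fun h => hτ1 ?_
    have := altSum_injective a 5 (h.trans (map_one (altSum a 5)).symm)
    exact congrArg Prod.fst this
  · rintro _ ⟨σ, rfl⟩
    rw [Subgroup.mem_centralizer_singleton_iff]
    show altSum a 5 (1, σ) * altSum a 5 (τ, 1) = altSum a 5 (τ, 1) * altSum a 5 (1, σ)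
    rw [← map_mul, ← map_mul]
    simp
  · intro h
    haveI := h
    exact not_solvable_alt_five (Group.isSolvable_of_isSolvable_injective
      (f := ι.rangeRestrict) (fun x y hxy => hι (congrArg Subtype.val hxy)))
  · rw [← Nat.card_congr (MonoidHom.ofInjective hι).toEquiv,
      nat_card_alternatingGroup, Nat.card_fin]
    rfl

/-- a minimal subgroup of `G` mapping onto `A_m` -/
lemma exists_min_cover {G : Type*} [Group G] [Finite G] {d m : ℕ} (hmd : m ≤ d)
    (hinv : Cfsg.Involves (alternatingGroup (Fin d)) G) :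
    ∃ (K : Subgroup G) (f : K →* alternatingGroup (Fin m)), Function.Surjective f ∧
      ∀ H : Subgroup K, H.map f = ⊤ → H = ⊤ := by
  obtain ⟨K₀, R, hR, ⟨e⟩⟩ := hinv
  obtain ⟨k, rfl⟩ := Nat.exists_eq_add_of_le hmd
  let ι : alternatingGroup (Fin m) →* alternatingGroup (Fin (m + k)) :=
    (altSum m k).comp (MonoidHom.inl _ _)
  have hι : Function.Injective ι := (altSum_injective m k).comp fun _ _ h => (Prod.mk.inj h).1
  let π : K₀ →* alternatingGroup (Fin (m + k)) := e.toMonoidHom.comp (QuotientGroup.mk' _)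
  have hπ : Function.Surjective π := e.surjective.comp (QuotientGroup.mk'_surjective _)
  let 𝒮 : Set (Subgroup G) := {K | ∃ f : K →* alternatingGroup (Fin m), Function.Surjective f}
  have hne : 𝒮.Nonempty := by
    let T : Subgroup K₀ := ι.range.comap π
    let π' : T →* ι.range := (π.comp T.subtype).codRestrict _ fun t => t.2
    let g : T →* alternatingGroup (Fin m) := (MonoidHom.ofInjective hι).symm.toMonoidHom.comp π'
    have hg : Function.Surjective g := by
      refine (MonoidHom.ofInjective hι).symm.surjective.comp ?_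
      rintro ⟨y, hy⟩
      obtain ⟨t, rfl⟩ := hπ y
      exact ⟨⟨t, hy⟩, rfl⟩
    refine ⟨T.map K₀.subtype, g.comp (T.equivMapOfInjective K₀.subtype
      K₀.subtype_injective).symm.toMonoidHom, hg.comp (MulEquiv.surjective _)⟩
  obtain ⟨K, ⟨f, hf⟩, hKmin⟩ := WellFounded.has_min (wellFounded_lt (α := Subgroup G)) 𝒮 hne
  refine ⟨K, f, hf, fun H hH => ?_⟩
  by_contra hne'
  refine hKmin (H.map K.subtype) ⟨(f.comp H.subtype).comp (H.equivMapOfInjective K.subtype
    K.subtype_injective).symm.toMonoidHom, ?_⟩ ?_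
  · intro y
    obtain ⟨h, hh, rfl⟩ := (SetLike.ext_iff.1 hH y).2 trivial
    refine ⟨H.equivMapOfInjective K.subtype K.subtype_injective ⟨h, hh⟩, ?_⟩
    simp
  · refine lt_of_le_of_ne (Subgroup.map_subtype_le H) fun he => hne' ?_
    apply Subgroup.map_injective K.subtype_injective
    rw [he, ← MonoidHom.range_eq_map, Subgroup.range_subtype]

end Cfsg.Agent.AltMod
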