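import Mathlib.Tactic
import Mathlib.Algebra.Module.Basic

/-!
Packed vectors for kernel-checked computations in modules over `ZMod p`: a vector is a natural
number, read in base `65536`, its lanes being the coefficients.
-/

namespace Cfsg.Agent.AltMod

variable {V : Type*} [AddCommGroup V]

/-- the combination of `φ 0, …, φ (d-1)` with the lanes of `X` as coefficients -/
def ev : (ℕ → V) → ℕ → ℕ → V
  | _, 0, _ => 0
  | φ, d + 1, X => (X % 65536) • φ 0 + ev (fun k => φ (k + 1)) d (X / 65536)

/-- the first `d` lanes of `X` are at most `b` -/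
def Ok : ℕ → ℕ → ℕ → Prop
  | _, 0, _ => True
  | b, d + 1, X => X % 65536 ≤ b ∧ Ok b d (X / 65536)

@[simp] lemma ev_zero_right (φ : ℕ → V) (d : ℕ) : ev φ d 0 = 0 := by
  induction d generalizing φ with
  | zero => rfl
  | succ d ih => simp [ev, ih]

lemma ok_zero (b d : ℕ) : Ok b d 0 := by
  induction d with
  | zero => trivial
  | succ d ih => exact ⟨by simp, by simpa using ih⟩

lemma Ok.mono {b c d X : ℕ} (h : Ok b d X) (hbc : b ≤ c) : Ok c d X := by
  induction d generalizing X with
  | zero => trivial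
  | succ d ih => exact ⟨h.1.trans hbc, ih h.2⟩

lemma add_lanes {b c d X Y : ℕ} (φ : ℕ → V) (hX : Ok b d X) (hY : Ok c d Y) (hbc : b + c < 65536) :
    ev φ d (X + Y) = ev φ d X + ev φ d Y ∧ Ok (b + c) d (X + Y) := by
  induction d generalizing φ X Y with
  | zero => exact ⟨by simp [ev], trivial⟩
  | succ d ih =>
    have h1 := hX.1
    have h2 := hY.1
    have hm : (X + Y) % 65536 = X % 65536 + Y % 65536 := by omega
    have hd : (X + Y) / 65536 = X / 65536 + Y / 65536 := by omega
    obtain ⟨he, ho⟩ := ih (fun k => φ (k + 1)) hX.2 hY.2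
    refine ⟨?_, ?_, ?_⟩
    · simp only [ev, hm, hd, he, add_smul]
      abel
    · rw [hm]; omega
    · rw [hd]; exact ho

lemma mul_lanes {b c d X : ℕ} (φ : ℕ → V) (hX : Ok b d X) (hbc : c * b < 65536) :
    ev φ d (c * X) = c • ev φ d X ∧ Ok (c * b) d (c * X) := by
  induction d generalizing φ X with
  | zero => exact ⟨by simp [ev], trivial⟩
  | succ d ih =>
    have h1 : c * (X % 65536) ≤ c * b := Nat.mul_le_mul_left c hX.1
    have hs : c * X = c * (X % 65536) + 65536 * (c * (X / 65536)) := by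
      conv_lhs => rw [← Nat.mod_add_div X 65536]
      ring
    have hm : c * X % 65536 = c * (X % 65536) := by omega
    have hd : c * X / 65536 = c * (X / 65536) := by omega
    obtain ⟨he, ho⟩ := ih (fun k => φ (k + 1)) hX.2
    refine ⟨?_, ?_, ?_⟩
    · simp only [ev, hm, hd, he, smul_add, mul_smul]
    · rw [hm]; exact h1
    · rw [hd]; exact ho

/-- `Σ (lane a of c) * cols[a]` -/
noncomputable def dotL (L : List ℕ) : ℕ → ℕ :=
  @List.rec ℕ (fun _ => ℕ → ℕ) (fun _ => 0)
    (fun x _ ih c => Nat.add (Nat.mul (Nat.mod c 65536) x) (ih (Nat.div c 65536))) L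

/-- eight columns -/
structure C8 where
  (c0 c1 c2 c3 c4 c5 c6 c7 : ℕ)

def C8.toList (x : C8) : List ℕ := [x.c0, x.c1, x.c2, x.c3, x.c4, x.c5, x.c6, x.c7]

def flat : List C8 → List ℕ
  | [] => []
  | x :: L => x.toList ++ flat L

/-- `dotL` unrolled eight times -/
noncomputable def dot8 (L : List C8) : ℕ → ℕ :=
  @List.rec C8 (fun _ => ℕ → ℕ) (fun _ => 0)
    (fun x _ ih c =>
      Nat.add (Nat.mul (Nat.mod c 65536) x.c0)
      (Nat.add (Nat.mul (Nat.mod (Nat.div c 65536) 65536) x.c1)
      (Nat.add (Nat.mul (Nat.mod (Nat.div c 4294967296) 65536) x.c2)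
      (Nat.add (Nat.mul (Nat.mod (Nat.div c 281474976710656) 65536) x.c3)
      (Nat.add (Nat.mul (Nat.mod (Nat.div c 18446744073709551616) 65536) x.c4)
      (Nat.add (Nat.mul (Nat.mod (Nat.div c 1208925819614629174706176) 65536) x.c5)
      (Nat.add (Nat.mul (Nat.mod (Nat.div c 79228162514264337593543950336) 65536) x.c6)
      (Nat.add (Nat.mul (Nat.mod (Nat.div c 5192296858534827628530496329220096) 65536) x.c7)
        (ih (Nat.div c 340282366920938463463374607431768211456)))))))))) L

lemma dotL_cons (x : ℕ) (L : List ℕ) (c : ℕ) :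
    dotL (x :: L) c = c % 65536 * x + dotL L (c / 65536) := rfl

lemma dotL_nil (c : ℕ) : dotL [] c = 0 := rfl

lemma dot8_eq (L : List C8) (c : ℕ) : dot8 L c = dotL (flat L) c := by
  induction L generalizing c with
  | nil => rfl
  | cons x L ih =>
    have h : dot8 (x :: L) c =
      c % 65536 * x.c0 + (c / 65536 % 65536 * x.c1 + (c / 4294967296 % 65536 * x.c2
      + (c / 281474976710656 % 65536 * x.c3 + (c / 18446744073709551616 % 65536 * x.c4
      + (c / 1208925819614629174706176 % 65536 * x.c5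
      + (c / 79228162514264337593543950336 % 65536 * x.c6
      + (c / 5192296858534827628530496329220096 % 65536 * x.c7
      + dot8 L (c / 340282366920938463463374607431768211456)))))))) := rfl
    rw [h, ih]
    simp only [flat, C8.toList, List.cons_append, List.nil_append, dotL_cons,
      Nat.div_div_eq_div_mul, Nat.reduceMul]

lemma dotL_spec {a b d : ℕ} (φ : ℕ → V) : ∀ (L : List ℕ) (c : ℕ), (∀ x ∈ L, Ok b d x) →
    Ok a L.length c → L.length * (a * b) < 65536 →
    ev φ d (dotL L c) = ev (fun t => ev φ d (L.getD t 0)) L.length c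
      ∧ Ok (L.length * (a * b)) d (dotL L c)
  | [], c, _, _, _ => by simp [dotL_nil, ev, ok_zero]
  | x :: L, c, hL, hc, hb => by
    simp only [List.length_cons, Nat.succ_mul] at hb hc
    obtain ⟨he, ho⟩ := dotL_spec φ L (c / 65536) (fun y hy => hL y (by simp [hy])) hc.2 (by omega)
    have hca : c % 65536 * b ≤ a * b := Nat.mul_le_mul_right b hc.1
    obtain ⟨hme, hmo⟩ := mul_lanes φ (c := c % 65536) (hL x (by simp)) (by omega)
    obtain ⟨hae, hao⟩ := add_lanes φ (hmo.mono hca) ho (by omega)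
    rw [dotL_cons]
    refine ⟨?_, ?_⟩
    · rw [hae, hme, he]
      simp [ev]
    · refine hao.mono ?_
      rw [List.length_cons, Nat.succ_mul]; omega

/-- reduce the first `d` lanes modulo `p`, one at a time -/
noncomputable def redA (p d : ℕ) : ℕ → ℕ :=
  @Nat.rec (fun _ => ℕ → ℕ) (fun _ => 0)
    (fun _ ih X => Nat.add (Nat.mod (Nat.mod X 65536) p) (Nat.mul 65536 (ih (Nat.div X 65536)))) d

/-- reduce eight lanes modulo `p` and put `rest X'` above them -/
noncomputable def red8 (p q : ℕ) (rest : ℕ → ℕ) : ℕ → ℕ :=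
  @Nat.rec (fun _ => ℕ → ℕ) rest
    (fun _ ih X =>
      Nat.add (Nat.mod (Nat.mod X 65536) p)
      (Nat.mul 65536 (Nat.add (Nat.mod (Nat.mod (Nat.div X 65536) 65536) p)
      (Nat.mul 65536 (Nat.add (Nat.mod (Nat.mod (Nat.div X 4294967296) 65536) p)
      (Nat.mul 65536 (Nat.add (Nat.mod (Nat.mod (Nat.div X 281474976710656) 65536) p)
      (Nat.mul 65536 (Nat.add (Nat.mod (Nat.mod (Nat.div X 18446744073709551616) 65536) p)
      (Nat.mul 65536 (Nat.add (Nat.mod (Nat.mod (Nat.div X 1208925819614629174706176) 65536) p)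
      (Nat.mul 65536 (Nat.add
        (Nat.mod (Nat.mod (Nat.div X 79228162514264337593543950336) 65536) p)
      (Nat.mul 65536 (Nat.add
        (Nat.mod (Nat.mod (Nat.div X 5192296858534827628530496329220096) 65536) p)
      (Nat.mul 65536 (ih (Nat.div X 340282366920938463463374607431768211456)))))))))))))))))) q

/-- reduce the first `d` lanes modulo `p` -/
noncomputable def red (p d X : ℕ) : ℕ := red8 p (d / 8) (redA p (d % 8)) X

lemma redA_succ (p d X : ℕ) :
    redA p (d + 1) X = X % 65536 % p + 65536 * redA p d (X / 65536) := rfl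

lemma red8_eq (p : ℕ) : ∀ (q r X : ℕ), red8 p q (redA p r) X = redA p (8 * q + r) X := by
  intro q
  induction q with
  | zero => intro r X; rw [mul_zero, zero_add]; rfl
  | succ q ih =>
    intro r X
    have hs : 8 * (q + 1) + r = 8 * q + r + 1 + 1 + 1 + 1 + 1 + 1 + 1 + 1 := by ring
    rw [hs]
    simp only [redA_succ, Nat.div_div_eq_div_mul, Nat.reduceMul, ← ih]
    rfl

lemma red_eq (p d X : ℕ) : red p d X = redA p d X := by
  rw [red, red8_eq, Nat.div_add_mod]

lemma red_succ (p d X : ℕ) :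
    red p (d + 1) X = X % 65536 % p + 65536 * red p d (X / 65536) := by
  rw [red_eq, red_eq, redA_succ]

lemma red_zero (p X : ℕ) : red p 0 X = 0 := rfl

lemma smul_mod {p : ℕ} (hV : ∀ v : V, p • v = 0) (x : ℕ) (v : V) : (x % p) • v = x • v := by
  conv_rhs => rw [← Nat.mod_add_div x p, add_smul, mul_comm, mul_smul, hV, smul_zero, add_zero]

lemma red_spec {p : ℕ} (hp : 0 < p) (hp' : p ≤ 65536) (hV : ∀ v : V, p • v = 0) (φ : ℕ → V)
    (d X : ℕ) :
    ev φ d (red p d X) = ev φ d X ∧ Ok (p - 1) d (red p d X) ∧ red p d X < 65536 ^ d := by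
  induction d generalizing φ X with
  | zero => exact ⟨by simp [ev], trivial, by simp [red_zero]⟩
  | succ d ih =>
    obtain ⟨he, ho, hlt⟩ := ih (fun k => φ (k + 1)) (X / 65536)
    have hy : X % 65536 % p < p := Nat.mod_lt _ hp
    have hm : red p (d + 1) X % 65536 = X % 65536 % p := by rw [red_succ]; omega
    have hd : red p (d + 1) X / 65536 = red p d (X / 65536) := by rw [red_succ]; omega
    refine ⟨?_, ⟨?_, ?_⟩, ?_⟩
    · simp only [ev, hm, hd, he, smul_mod hV]
    · rw [hm]; omega
    · rw [hd]; exact ho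
    · rw [red_succ, pow_succ]; omega

/-- the block of lanes starting at `r * i` -/
def blk (r i X : ℕ) : ℕ := Nat.div X (65536 ^ (r * i))

/-- concatenate blocks of `r` lanes -/
noncomputable def join (r : ℕ) (L : List ℕ) : ℕ :=
  @List.rec ℕ (fun _ => ℕ) 0 (fun x _ ih => Nat.add x (Nat.mul (65536 ^ r) ih)) L

lemma join_cons (r x : ℕ) (L : List ℕ) : join r (x :: L) = x + 65536 ^ r * join r L := rfl

lemma ev_split (φ : ℕ → V) (a b X : ℕ) :
    ev φ (a + b) X = ev φ a X + ev (fun k => φ (a + k)) b (X / 65536 ^ a) := by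
  induction a generalizing φ X with
  | zero => simp [ev]
  | succ a ih =>
    rw [show a + 1 + b = a + b + 1 by ring]
    simp only [ev]
    rw [ih, Nat.div_div_eq_div_mul, show 65536 ^ (a + 1) = 65536 * 65536 ^ a by rw [pow_succ']]
    rw [add_assoc]
    congr 3
    funext k
    congr 1
    ring

lemma ev_add_mul (φ : ℕ → V) (d x Y : ℕ) : ev φ d (x + 65536 ^ d * Y) = ev φ d x := by
  induction d generalizing φ x with
  | zero => rfl
  | succ d ih =>
    have hs : x + 65536 ^ (d + 1) * Y = x + 65536 * (65536 ^ d * Y) := by rw [pow_succ']; ring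
    simp only [ev]
    rw [hs, Nat.add_mul_mod_self_left, Nat.add_mul_div_left _ _ (by norm_num), ih]

lemma ok_add_mul (b d x Y : ℕ) (h : Ok b d x) : Ok b d (x + 65536 ^ d * Y) := by
  induction d generalizing x with
  | zero => trivial
  | succ d ih =>
    have hs : x + 65536 ^ (d + 1) * Y = x + 65536 * (65536 ^ d * Y) := by rw [pow_succ']; ring
    refine ⟨?_, ?_⟩
    · rw [hs, Nat.add_mul_mod_self_left]; exact h.1
    · rw [hs, Nat.add_mul_div_left _ _ (by norm_num)]; exact ih _ h.2

lemma ok_split (c a b X : ℕ) (h1 : Ok c a X) (h2 : Ok c b (X / 65536 ^ a)) :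
    Ok c (a + b) X := by
  induction a generalizing X with
  | zero => simpa using h2
  | succ a ih =>
    rw [show a + 1 + b = a + b + 1 by ring]
    refine ⟨h1.1, ih _ h1.2 ?_⟩
    rw [Nat.div_div_eq_div_mul, ← pow_succ']
    exact h2

/-- sum of `ev` over the blocks of a vector -/
lemma ev_blocks (φ : ℕ → V) (r n X : ℕ) : ev φ (r * n) X =
    ∑ i ∈ Finset.range n, ev (fun a => φ (r * i + a)) r (blk r i X) := by
  induction n with
  | zero => simp [ev]
  | succ n ih => rw [Finset.sum_range_succ, ← ih, Nat.mul_succ, ev_split]; rfl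

lemma join_spec (φ : ℕ → V) (r c : ℕ) : ∀ L : List ℕ, (∀ x ∈ L, x < 65536 ^ r ∧ Ok c r x) →
    ev φ (r * L.length) (join r L) =
      ∑ j ∈ Finset.range L.length, ev (fun a => φ (r * j + a)) r (L.getD j 0)
    ∧ Ok c (r * L.length) (join r L) := by
  intro L hL
  induction L generalizing φ with
  | nil => exact ⟨by simp [ev], trivial⟩
  | cons x L ih =>
    obtain ⟨he, ho⟩ := ih (fun k => φ (r + k)) (fun y hy => hL y (by simp [hy]))
    obtain ⟨hx, hxo⟩ := hL x (by simp)
    have hdiv : join r (x :: L) / 65536 ^ r = join r L := by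
      rw [join_cons, Nat.add_mul_div_left _ _ (by positivity), Nat.div_eq_of_lt hx, zero_add]
    rw [List.length_cons, Nat.mul_succ, add_comm]
    refine ⟨?_, ?_⟩
    · rw [ev_split, hdiv, he, Finset.sum_range_succ', join_cons, ev_add_mul, add_comm]
      congr 1
      · refine Finset.sum_congr rfl fun j _ => ?_
        simp only [List.getD_cons_succ]
        congr 1
        funext a
        congr 1
        ring
      · simp
    · refine ok_split _ _ _ _ ?_ (by rw [hdiv]; exact ho)
      rw [join_cons]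
      exact ok_add_mul _ _ _ _ hxo

/-- the number with all of its first `d` lanes equal to `c` -/
def rep (d c : ℕ) : ℕ := c * ((65536 ^ d - 1) / 65535)

lemma rep_succ (d c : ℕ) : rep (d + 1) c = c + 65536 * rep d c := by
  have key : ∀ d, 65535 ∣ 65536 ^ d - 1 := fun d => by
    simpa using Nat.sub_dvd_pow_sub_pow 65536 1 d
  obtain ⟨q, hq⟩ := key d
  have hpos : 1 ≤ 65536 ^ d := Nat.one_le_pow _ _ (by norm_num)
  have h2 : 65536 ^ (d + 1) - 1 = 65535 * (65536 * q + 1) := by
    have : 65536 ^ (d + 1) = 65536 * 65536 ^ d := by rw [pow_succ']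
    omega
  rw [rep, rep, hq, h2, Nat.mul_div_cancel_left _ (by norm_num),
    Nat.mul_div_cancel_left _ (by norm_num)]
  ring

lemma land_split (X Y : ℕ) : Nat.land X Y % 65536 = Nat.land (X % 65536) (Y % 65536) ∧
    Nat.land X Y / 65536 = Nat.land (X / 65536) (Y / 65536) := by
  show (X &&& Y) % 65536 = (X % 65536) &&& (Y % 65536) ∧
    (X &&& Y) / 65536 = (X / 65536) &&& (Y / 65536)
  rw [show (65536 : ℕ) = 2 ^ 16 by norm_num]
  exact ⟨Nat.and_mod_two_pow, Nat.and_div_two_pow⟩

lemma lane_land {x : ℕ} (hx : x < 65536) (h : Nat.land x 65528 = 0) : x ≤ 7 := by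
  have h' : x &&& 65528 = 0 := h
  have h3 : (x &&& 65528) / 8 = x / 8 &&& 65528 / 8 := by
    rw [show (8 : ℕ) = 2 ^ 3 by norm_num]; exact Nat.and_div_two_pow
  have h4 : x / 8 &&& 8191 = x / 8 := by
    rw [show (8191 : ℕ) = 2 ^ 13 - 1 by norm_num, Nat.and_two_pow_sub_one_eq_mod]
    exact Nat.mod_eq_of_lt (by omega)
  rw [h', show 65528 / 8 = 8191 by norm_num, h4] at h3
  omega

/-- decidable form of `Ok`, by masking -/
def okb (b d X : ℕ) : Bool :=
  Nat.ble b 7 && Nat.beq (Nat.land X (rep d 65528)) 0 &&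
    Nat.beq (Nat.land (Nat.add X (rep d (7 - b))) (rep d 65528)) 0

lemma ok_of_okb {b d X : ℕ} (h : okb b d X = true) : Ok b d X := by
  simp only [okb, Bool.and_eq_true, Nat.ble_eq] at h
  obtain ⟨⟨hb, h1⟩, h2⟩ := h
  have h1' := Nat.eq_of_beq_eq_true h1
  have h2' : Nat.land (X + rep d (7 - b)) (rep d 65528) = 0 := Nat.eq_of_beq_eq_true h2
  clear h1 h2
  induction d generalizing X with
  | zero => trivial
  | succ d ih =>
    rw [rep_succ] at h1'
    rw [rep_succ, rep_succ] at h2'
    have e1 := land_split X (65528 + 65536 * rep d 65528)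
    have e2 := land_split (X + (7 - b + 65536 * rep d (7 - b))) (65528 + 65536 * rep d 65528)
    rw [h1', Nat.zero_mod, Nat.zero_div] at e1
    rw [h2', Nat.zero_mod, Nat.zero_div] at e2
    rw [show (65528 + 65536 * rep d 65528) % 65536 = 65528 by omega,
      show (65528 + 65536 * rep d 65528) / 65536 = rep d 65528 by omega] at e1 e2
    have hl : X % 65536 ≤ 7 := lane_land (Nat.mod_lt _ (by norm_num)) e1.1.symm
    have hm : (X + (7 - b + 65536 * rep d (7 - b))) % 65536 = X % 65536 + (7 - b) := by omega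
    have hd : (X + (7 - b + 65536 * rep d (7 - b))) / 65536 = X / 65536 + rep d (7 - b) := by omega
    rw [hm, hd] at e2
    have hl2 : X % 65536 + (7 - b) ≤ 7 := lane_land (by omega) e2.1.symm
    exact ⟨by omega, ih e1.2.symm e2.2.symm⟩

lemma ev_map (f : V →+ V) (φ : ℕ → V) (d X : ℕ) :
    f (ev φ d X) = ev (fun k => f (φ k)) d X := by
  induction d generalizing φ X with
  | zero => simp [ev]
  | succ d ih => simp [ev, ih, map_nsmul]

lemma ev_congr {φ ψ : ℕ → V} {d : ℕ} (h : ∀ k < d, φ k = ψ k) (X : ℕ) :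
    ev φ d X = ev ψ d X := by
  induction d generalizing φ ψ X with
  | zero => rfl
  | succ d ih =>
    simp only [ev, h 0 (by omega)]
    rw [ih (fun k hk => h (k + 1) (by omega))]

lemma ev_eq_zero {φ : ℕ → V} {d : ℕ} (h : ∀ k < d, φ k = 0) (X : ℕ) : ev φ d X = 0 := by
  induction d generalizing φ X with
  | zero => rfl
  | succ d ih =>
    simp only [ev, h 0 (by omega)]
    rw [ih (fun k hk => h (k + 1) (by omega))]
    simp

lemma ev_pow (φ : ℕ → V) {d a : ℕ} (ha : a < d) : ev φ d (65536 ^ a) = φ a := by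
  induction a generalizing φ d with
  | zero =>
    obtain ⟨d, rfl⟩ := Nat.exists_eq_succ_of_ne_zero (show d ≠ 0 by omega)
    simp [ev]
  | succ a ih =>
    obtain ⟨d, rfl⟩ := Nat.exists_eq_succ_of_ne_zero (show d ≠ 0 by omega)
    simp only [ev]
    rw [pow_succ', Nat.mul_mod_right, Nat.mul_div_cancel_left _ (by norm_num), ih _ (by omega)]
    simp

end Cfsg.Agent.AltMod
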