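import Mathlib

/-!
Minimal covers of alternating groups: `p`-elements with nonsolvable centralizers.
-/

set_option autoImplicit false

namespace Cfsg.Agent.AltMod

open Subgroup

variable {K A : Type*} [Group K] [Group A] [Finite K] (p : ℕ) [Fact p.Prime] (f : K →* A)

/-- every noncentral `p`-element has solvable centralizer -/
def SolvCent (K : Type*) [Group K] (p : ℕ) : Prop :=
  ∀ x : K, x ∉ center K → (∃ k : ℕ, orderOf x = p ^ k) →
    Group.IsSolvable (centralizer ({x} : Set K))

variable {p f}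

omit [Finite K] in
lemma order_of_mem_pGroup {P : Subgroup K} (hP : IsPGroup p P) {x : K} (hx : x ∈ P) :
    ∃ k : ℕ, orderOf x = p ^ k := by
  obtain ⟨k, hk⟩ := IsPGroup.iff_orderOf.1 hP ⟨x, hx⟩
  exact ⟨k, by rw [← hk, ← Subgroup.orderOf_coe]⟩

omit [Finite K] [Fact p.Prime] in
/-- a nonsolvable group commuting with `x` modulo the centre gives a nonsolvable centralizer -/
lemma contra_of_comm_central (h : SolvCent K p) {S : Subgroup K} {x : K}
    (hS : ¬ Group.IsSolvable S) (hx : x ∉ center K) (hxp : ∃ k : ℕ, orderOf x = p ^ k)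
    (hc : ∀ k ∈ S, k * x * k⁻¹ * x⁻¹ ∈ center K) : False := by
  refine hS ?_
  haveI := h x hx hxp
  let ψ : S →* center K :=
    { toFun := fun k => ⟨(k : K) * x * (k : K)⁻¹ * x⁻¹, hc k k.2⟩
      map_one' := Subtype.ext (by simp)
      map_mul' := fun a b => Subtype.ext (by
        have hb := (mem_center_iff.1 (hc b b.2) ((a : K))).symm
        simp only [Subgroup.coe_mul, mul_inv_rev]
        calc (a : K) * b * x * ((b : K)⁻¹ * (a : K)⁻¹) * x⁻¹
            = (a : K) * ((b : K) * x * (b : K)⁻¹ * x⁻¹) * (x * (a : K)⁻¹ * x⁻¹) := by group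
          _ = ((b : K) * x * (b : K)⁻¹ * x⁻¹) * (a : K) * (x * (a : K)⁻¹ * x⁻¹) := by rw [hb]
          _ = ((b : K) * x * (b : K)⁻¹ * x⁻¹) * ((a : K) * x * (a : K)⁻¹ * x⁻¹) := by group
          _ = ((a : K) * x * (a : K)⁻¹ * x⁻¹) * ((b : K) * x * (b : K)⁻¹ * x⁻¹) :=
            (mem_center_iff.1 (hc b b.2) _).symm) }
  have hker : ∀ k : S, k ∈ ψ.ker → (k : K) ∈ centralizer ({x} : Set K) := by
    intro k hk
    rw [mem_centralizer_singleton_iff]
    have h1 : (k : K) * x * (k : K)⁻¹ * x⁻¹ = 1 := congrArg Subtype.val hk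
    exact mul_inv_eq_iff_eq_mul.1 (mul_inv_eq_one.1 h1)
  let ι : ψ.ker →* centralizer ({x} : Set K) :=
    { toFun := fun k => ⟨((k : S) : K), hker k k.2⟩
      map_one' := rfl
      map_mul' := fun _ _ => rfl }
  haveI : Group.IsSolvable ψ.ker := Group.isSolvable_of_isSolvable_injective (f := ι)
    (fun a b hab => by
      apply Subtype.ext; apply Subtype.ext
      exact congrArg (fun z : centralizer ({x} : Set K) => (z : K)) hab)
  haveI : Group.IsSolvable (center K) :=
    Group.isSolvable_of_comm fun a b => Subtype.ext ((mem_center_iff.1 b.2 a))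
  exact Group.isSolvable_of_ker_le_range ψ.ker.subtype ψ (by rw [Subgroup.range_subtype])

omit [Finite K] in
lemma not_solvable_of_map {S : Subgroup K} {L : Subgroup A} (hL : ¬ Group.IsSolvable L)
    (hS : L ≤ S.map f) : ¬ Group.IsSolvable S := by
  intro hs
  haveI := hs
  haveI : Group.IsSolvable (S.map f) :=
    Group.isSolvable_of_surjective (f.subgroupMap_surjective S)
  exact hL (Group.isSolvable_of_isSolvable_injective (Subgroup.inclusion_injective hS))

variable (f)

/-- a Sylow `p`-subgroup of the kernel is normal, and the kernel is nilpotent, in a minimal cover -/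
lemma ker_sylow_normal (hf : Function.Surjective f)
    (hmin : ∀ H : Subgroup K, H.map f = ⊤ → H = ⊤) {q : ℕ} [Fact q.Prime] (P : Sylow q f.ker) :
    ((P : Subgroup f.ker).map f.ker.subtype).Normal := by
  refine normalizer_eq_top_iff.1 (hmin _ ?_)
  have h := congrArg (Subgroup.map f) (Sylow.normalizer_sup_eq_top P)
  rw [Subgroup.map_sup, (Subgroup.map_eq_bot_iff _).2 le_rfl, sup_bot_eq] at h
  rw [h, Subgroup.map_top_of_surjective f hf]

lemma ker_nilpotent (hf : Function.Surjective f)
    (hmin : ∀ H : Subgroup K, H.map f = ⊤ → H = ⊤) : Group.IsNilpotent f.ker := by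
  refine (Group.isNilpotent_of_finite_tfae (G := f.ker)).out 0 3 |>.2 ?_
  intro q hq P
  haveI := hq
  haveI := ker_sylow_normal f hf hmin P
  have := Subgroup.Normal.comap (ker_sylow_normal f hf hmin P) f.ker.subtype
  rwa [Subgroup.comap_map_eq_self_of_injective f.ker.subtype_injective] at this

set_option maxHeartbeats 800000 in
/-- the normalizer data over an element `c` of order `p` -/
lemma exists_lift (hf : Function.Surjective f) {c : A} (hc : c ^ p = 1) :
    ∃ (P' : Subgroup K) (x : K), IsPGroup p P' ∧ x ∈ P' ∧ f x = c ∧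
      P' ≤ comap f (zpowers c) ∧
      ∀ g ∈ centralizer ({c} : Set A), ∃ k ∈ normalizer (P' : Set K), f k = g := by
  let R : Subgroup K := comap f (zpowers c)
  let π : R →* zpowers c := (f.comp R.subtype).codRestrict _ (fun r => r.2)
  have hπ : Function.Surjective π := by
    rintro ⟨y, hy⟩
    obtain ⟨k, rfl⟩ := hf y
    exact ⟨⟨k, hy⟩, rfl⟩
  obtain ⟨Q⟩ : Nonempty (Sylow p R) := inferInstance
  have hcyc : IsPGroup p (zpowers c) := fun y => ⟨1, by
    obtain ⟨i, hi⟩ := mem_zpowers_iff.1 y.2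
    apply Subtype.ext
    rw [pow_one, SubgroupClass.coe_pow, ← hi, ← zpow_natCast, ← zpow_mul, mul_comm, zpow_mul,
      zpow_natCast, hc, one_zpow]
    rfl⟩
  have hQtop : (Q : Subgroup R).map π = ⊤ := by
    have h1 : ((Q.mapSurjective hπ : Sylow p (zpowers c)) : Subgroup (zpowers c)) =
        (Q : Subgroup R).map π := rfl
    rw [← h1]
    exact (((Q.mapSurjective hπ).is_maximal' (hcyc.to_subgroup ⊤) le_top)).symm
  obtain ⟨r, hr, hrc⟩ := (SetLike.ext_iff.1 hQtop ⟨c, mem_zpowers c⟩).2 trivial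
  let P' : Subgroup K := (Q : Subgroup R).map R.subtype
  have hx : (r : K) ∈ P' := ⟨r, hr, rfl⟩
  have hfr : f (r : K) = c := congrArg Subtype.val hrc
  refine ⟨P', r, Q.isPGroup'.map _, hx, hfr, Subgroup.map_subtype_le _, fun g hg => ?_⟩
  obtain ⟨k, rfl⟩ := hf g
  have hg' : f k * c = c * f k := (mem_centralizer_singleton_iff.1 hg)
  let M : Subgroup K := comap f (centralizer ({c} : Set A))
  have hRM : R ≤ M := comap_mono (zpowers_le.2 (by simp [mem_centralizer_singleton_iff]))
  haveI : (R.subgroupOf M).Normal := by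
    constructor
    intro r hr g
    obtain ⟨i, hi⟩ := mem_zpowers_iff.1 hr
    have hgc : Commute (f (g : K)) c := mem_centralizer_singleton_iff.1 g.2
    show f ((g : K) * (r : K) * (g : K)⁻¹) ∈ zpowers c
    have hi' : f (r : K) = c ^ i := hi.symm
    rw [map_mul, map_mul, map_inv, hi', (hgc.zpow_right i).eq, mul_inv_cancel_right]
    exact zpow_mem (mem_zpowers c) i
  let Q' : Sylow p (R.subgroupOf M) :=
    Q.comapOfInjective (subgroupOfEquivOfLe hRM).toMonoidHom (MulEquiv.injective _)
      (by rw [MonoidHom.range_eq_top.2 (MulEquiv.surjective _)]; exact le_top)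
  have hkM : k ∈ M := mem_centralizer_singleton_iff.2 hg'
  have htop := Sylow.normalizer_sup_eq_top Q'
  have hmem : (⟨k, hkM⟩ : M) ∈ normalizer
      (((Q' : Subgroup (R.subgroupOf M)).map (R.subgroupOf M).subtype : Subgroup M) : Set M) ⊔
      R.subgroupOf M := by rw [htop]; trivial
  obtain ⟨n, hn, s, hs, hns⟩ := mem_sup_of_normal_right.1 hmem
  have himg : (((Q' : Subgroup (R.subgroupOf M)).map (R.subgroupOf M).subtype).map M.subtype)
      = P' := by
    ext y
    constructor
    · rintro ⟨_, ⟨z, hz, rfl⟩, rfl⟩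
      exact ⟨subgroupOfEquivOfLe hRM z, hz, rfl⟩
    · rintro ⟨z, hz, rfl⟩
      exact ⟨_, ⟨(subgroupOfEquivOfLe hRM).symm z, by
        show subgroupOfEquivOfLe hRM ((subgroupOfEquivOfLe hRM).symm z) ∈ (Q : Subgroup R)
        rwa [MulEquiv.apply_symm_apply], rfl⟩, rfl⟩
  have hnK : (n : K) ∈ normalizer (P' : Set K) :=
    himg ▸ Subgroup.le_normalizer_map M.subtype ⟨n, hn, rfl⟩
  obtain ⟨i, hi⟩ := mem_zpowers_iff.1 hs
  refine ⟨(n : K) * (r : K) ^ i, mul_mem hnK (zpow_mem (le_normalizer hx) i), ?_⟩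
  have := congrArg (fun z : M => f (z : K)) hns
  simp only [Subgroup.coe_mul, map_mul] at this
  rw [map_mul, map_zpow, hfr]
  have hi' : f (s : K) = c ^ i := hi.symm
  rw [← hi']
  exact this

variable {f}

/-- central Sylow subgroup of the kernel -/
lemma contra_central (h : SolvCent K p) (hf : Function.Surjective f)
    (hmin : ∀ H : Subgroup K, H.map f = ⊤ → H = ⊤) {c : A} (hc : c ^ p = 1)
    (hcA : c ∉ center A) (hL : ¬ Group.IsSolvable (centralizer ({c} : Set A))) (P : Sylow p f.ker)
    (hP : (P : Subgroup f.ker).map f.ker.subtype ≤ center K) : False := by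
  obtain ⟨P', x, hP', hxP, hfx, hle, hlift⟩ := exists_lift f hf hc
  let S : Subgroup K := normalizer (P' : Set K) ⊓ comap f (centralizer ({c} : Set A))
  refine contra_of_comm_central h (S := S) (not_solvable_of_map (f := f) hL fun g hg => ?_)
    (fun hcen => hcA ?_) (order_of_mem_pGroup hP' hxP) (fun k hk => hP ?_)
  · obtain ⟨k, hk, rfl⟩ := hlift g hg
    exact ⟨k, ⟨hk, hg⟩, rfl⟩
  · rw [mem_center_iff] at hcen ⊢
    intro g
    obtain ⟨k, rfl⟩ := hf g
    rw [← hfx, ← map_mul, ← map_mul, hcen k]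
  · have h1 : k * x * k⁻¹ * x⁻¹ ∈ P' :=
      mul_mem ((mem_normalizer_iff.1 hk.1 x).1 hxP) (inv_mem hxP)
    have h2 : k * x * k⁻¹ * x⁻¹ ∈ f.ker := by
      have := mem_centralizer_singleton_iff.1 hk.2
      rw [MonoidHom.mem_ker, map_mul, map_mul, map_mul, map_inv, map_inv, hfx, this]
      group
    haveI hn := ker_sylow_normal f hf hmin P
    haveI : (P : Subgroup f.ker).Normal := by
      have := hn.comap f.ker.subtype
      rwa [Subgroup.comap_map_eq_self_of_injective f.ker.subtype_injective] at this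
    have h3 : IsPGroup p (P'.subgroupOf f.ker) :=
      hP'.comap_of_injective f.ker.subtype f.ker.subtype_injective
    obtain ⟨Q, hQ⟩ := h3.exists_le_sylow
    haveI := P.unique_of_normal inferInstance
    rw [Subsingleton.elim Q P] at hQ
    exact ⟨⟨_, h2⟩, hQ h1, rfl⟩

end Cfsg.Agent.AltMod
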