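import Cfsg.Agent.Lib.AltModule.CentralizerCases
import Cfsg.Agent.Lib.CoprimeAction.Basic

/-!
Minimal covers: the case of a `p'`-group centralizing an element of order `p`.
-/

set_option autoImplicit false

namespace Cfsg.Agent.AltMod

open Subgroup

variable {K A : Type*} [Group K] [Group A] [Finite K] {p : ℕ} [Fact p.Prime] {f : K →* A}

/-- a `p'`-group `L` centralizing `c` -/
lemma contra_coprime (h : SolvCent K p) (hf : Function.Surjective f)
    (hmin : ∀ H : Subgroup K, H.map f = ⊤ → H = ⊤) {c : A} (hc : c ^ p = 1)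
    (hcA : c ∉ center A) {L : Subgroup A} (hLc : L ≤ centralizer ({c} : Set A))
    (hL : ¬ Group.IsSolvable L) (hpL : ¬ p ∣ Nat.card L) : False := by
  obtain ⟨P', x, hP', hxP, hfx, hle, hlift⟩ := exists_lift f hf hc
  let T : Subgroup K := normalizer (P' : Set K) ⊓ comap f L
  let π : T →* L := (f.comp T.subtype).codRestrict _ (fun t => t.2.2)
  have hπ : Function.Surjective π := by
    rintro ⟨y, hy⟩
    obtain ⟨k, hk, rfl⟩ := hlift y (hLc hy)
    exact ⟨⟨k, hk, hy⟩, rfl⟩
  haveI : Finite L := Finite.of_surjective π hπ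
  -- the Sylow subgroup of the kernel of `π` is normal in `T`
  obtain ⟨P⟩ : Nonempty (Sylow p f.ker) := inferInstance
  haveI hPn := ker_sylow_normal f hf hmin P
  haveI : (P : Subgroup f.ker).Normal := by
    have := hPn.comap f.ker.subtype
    rwa [Subgroup.comap_map_eq_self_of_injective f.ker.subtype_injective] at this
  set P₀ : Subgroup K := (P : Subgroup f.ker).map f.ker.subtype with hP₀
  have hP₀p : IsPGroup p P₀ := P.isPGroup'.map _
  have hsub : ∀ (Q : Subgroup K), IsPGroup p Q → Q ≤ f.ker → Q ≤ P₀ := by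
    intro Q hQ hQk y hy
    obtain ⟨U, hU⟩ := (hQ.comap_of_injective f.ker.subtype f.ker.subtype_injective).exists_le_sylow
    haveI := P.unique_of_normal inferInstance
    rw [Subsingleton.elim U P] at hU
    exact ⟨⟨y, hQk hy⟩, hU hy, rfl⟩
  let Q₀ : Subgroup T := P₀.subgroupOf T
  haveI : Q₀.Normal := hPn.subgroupOf T
  have hQ₀ : IsPGroup p Q₀ := hP₀p.comap_of_injective T.subtype T.subtype_injective
  have hQker : Q₀ ≤ π.ker := by
    intro t ht
    obtain ⟨z, -, hz⟩ := ht
    apply Subtype.ext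
    show f (t : K) = 1
    have hz' : (z : K) = (t : K) := hz
    rw [← hz']
    exact z.2
  have hidx : ¬ p ∣ Q₀.index := by
    obtain ⟨W, hW⟩ := hQ₀.exists_le_sylow
    have himg : IsPGroup p ((W : Subgroup T).map π) := W.isPGroup'.map π
    have hbot : (W : Subgroup T).map π = ⊥ := by
      obtain ⟨e, he⟩ := IsPGroup.iff_card.1 himg
      rcases Nat.eq_zero_or_pos e with rfl | he'
      · exact Subgroup.eq_bot_of_card_eq _ (by simpa using he)
      · exact absurd ((dvd_pow_self p he'.ne').trans (he ▸ Subgroup.card_subgroup_dvd_card _)) hpL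
    have hWQ : (W : Subgroup T) ≤ Q₀ := fun w hw =>
      hsub ((W : Subgroup T).map T.subtype) (W.isPGroup'.map _) (by
        rintro _ ⟨v, hv, rfl⟩
        exact congrArg Subtype.val ((Subgroup.map_eq_bot_iff _).1 hbot hv))
        (Subgroup.mem_map_of_mem T.subtype hw)
    rw [le_antisymm hW hWQ]
    exact W.not_dvd_index
  have hcop : (Nat.card Q₀).Coprime Q₀.index := by
    obtain ⟨e, he⟩ := IsPGroup.iff_card.1 hQ₀
    rw [he]
    exact Nat.Coprime.pow_left e ((Fact.out : p.Prime).coprime_iff_not_dvd.2 hidx)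
  obtain ⟨C, hC⟩ := Subgroup.exists_right_complement'_of_coprime hcop
  let A₀ : Subgroup K := C.map T.subtype
  have hA₀card : ¬ p ∣ Nat.card A₀ := by
    rw [Subgroup.card_map_of_injective T.subtype_injective, ← hC.symm.index_eq_card]
    exact hidx
  have hA₀map : L ≤ A₀.map f := by
    intro y hy
    obtain ⟨t, ht⟩ := hπ ⟨y, hy⟩
    obtain ⟨⟨⟨q, hq⟩, ⟨a, ha⟩⟩, hqa, -⟩ := hC.existsUnique t
    refine ⟨a, ⟨a, ha, rfl⟩, ?_⟩
    have h1 : π q = 1 := hQker hq
    have h2 : π t = π a := by
      rw [← hqa]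
      show π (q * a) = π a
      rw [map_mul, h1, one_mul]
    exact congrArg Subtype.val (h2 ▸ ht)
  let N₀ : Subgroup K := P' ⊓ f.ker
  have hA₀T : A₀ ≤ T := Subgroup.map_subtype_le C
  have hnorm : A₀ ≤ normalizer (N₀ : Set K) := by
    intro a ha
    rw [mem_normalizer_iff]
    intro y
    refine Iff.and ((mem_normalizer_iff.1 (hA₀T ha).1) y) ?_
    show y ∈ f.ker ↔ a * y * a⁻¹ ∈ f.ker
    simp only [MonoidHom.mem_ker, map_mul, map_inv, conj_eq_one_iff]
  have hN₀ : IsPGroup p N₀ := hP'.to_le inf_le_left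
  have hcop' : (Nat.card A₀).Coprime (Nat.card N₀) := by
    obtain ⟨e, he⟩ := IsPGroup.iff_card.1 hN₀
    rw [he]
    exact Nat.Coprime.pow_right e ((Fact.out : p.Prime).coprime_iff_not_dvd.2 hA₀card).symm
  haveI hN₀s : Group.IsSolvable N₀ := by
    haveI := hN₀.isNilpotent
    infer_instance
  obtain ⟨y, hy, hyN⟩ := CfsgLib.CoprimeAction.exists_centralizer_mem_coset hnorm hcop'
    (Or.inr hN₀s) x (fun a ha => Subgroup.mem_inf.2
      ⟨P'.mul_mem (P'.inv_mem hxP) ((mem_normalizer_iff.1 (hA₀T ha).1 x).1 hxP), by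
        have hcm := mem_centralizer_singleton_iff.1 (hLc (hA₀T ha).2)
        rw [MonoidHom.mem_ker, map_mul, map_mul, map_mul, map_inv, map_inv, hfx, hcm]
        group⟩)
  have hfy : f y = c := by
    have := (Subgroup.mem_inf.1 hyN).2
    rw [MonoidHom.mem_ker, map_mul, map_inv, inv_mul_eq_one] at this
    rw [← this, hfx]
  have hyP : y ∈ P' := by simpa using P'.mul_mem hxP (Subgroup.mem_inf.1 hyN).1
  refine contra_of_comm_central h (S := A₀) (x := y) (not_solvable_of_map (f := f) hL hA₀map)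
    (fun hcen => hcA ?_) (order_of_mem_pGroup hP' hyP) (fun a ha => ?_)
  · rw [mem_center_iff] at hcen ⊢
    intro g
    obtain ⟨k, rfl⟩ := hf g
    rw [← hfy, ← map_mul, ← map_mul, hcen k]
  · have := mem_centralizer_iff.1 hy a ha
    rw [this]
    simp

end Cfsg.Agent.AltMod
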