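import Cfsg.Agent.Lib.AltModule.CentralizerCases

/-!
Minimal covers with noncentral Sylow subgroup in the kernel: reduction to a module of the quotient.
-/

set_option autoImplicit false

namespace Cfsg.Agent.AltMod

open Subgroup

universe u

/-- every nonzero finite module in characteristic `p` has a vector with nonsolvable stabilizer -/
def HasFixed (A : Type*) [Group A] (p : ℕ) : Prop :=
  ∀ (V : Type u) [AddCommGroup V] [DistribMulAction A V] [Finite V] [Nontrivial V],
    (∀ v : V, p • v = 0) →
      ∃ v : V, v ≠ 0 ∧ ∃ H : Subgroup A, ¬ Group.IsSolvable H ∧ ∀ h ∈ H, h • v = v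

variable {K : Type u} [Group K] [Finite K] {A : Type*} [Group A] {p : ℕ} [Fact p.Prime] {f : K →* A}

/-- the Sylow subgroup of the kernel is central -/
lemma central_of_hasFixed (h : SolvCent K p) (hf : Function.Surjective f)
    (hmin : ∀ H : Subgroup K, H.map f = ⊤ → H = ⊤) (hfix : HasFixed.{u} A p) (P : Sylow p f.ker) :
    (P : Subgroup f.ker).map f.ker.subtype ≤ center K := by
  by_contra hcen
  set P₀ : Subgroup K := (P : Subgroup f.ker).map f.ker.subtype with hP₀
  haveI hPn : P₀.Normal := ker_sylow_normal f hf hmin P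
  have hP₀p : IsPGroup p P₀ := P.isPGroup'.map _
  have hP₀k : P₀ ≤ f.ker := Subgroup.map_subtype_le _
  let 𝒮 : Set (Subgroup K) := {U | U.Normal ∧ U ≤ P₀ ∧ ¬ U ≤ center K}
  obtain ⟨U, ⟨hUn, hUP, hUc⟩, hUmin⟩ :=
    WellFounded.has_min (wellFounded_lt (α := Subgroup K)) 𝒮 ⟨P₀, hPn, le_rfl, hcen⟩
  haveI := hUn
  have hUk : U ≤ f.ker := hUP.trans hP₀k
  have hsmall : ∀ W : Subgroup K, W.Normal → W ≤ U → W ≠ U → W ≤ center K := by
    intro W hW hWU hne
    by_contra hWc
    exact hUmin W ⟨hW, hWU.trans hUP, hWc⟩ (lt_of_le_of_ne hWU hne)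
  -- the kernel acts trivially modulo the centre
  have hcomm : ∀ k ∈ f.ker, ∀ u ∈ U, k * u * k⁻¹ * u⁻¹ ∈ center K := by
    have hle : ⁅U, f.ker⁆ ≤ center K := by
      by_contra hne
      have heq : ⁅U, f.ker⁆ = U := by
        by_contra hne'
        exact hne (hsmall _ inferInstance (Subgroup.commutator_le_left _ _) hne')
      obtain ⟨n, hn⟩ :=
        (Subgroup.isNilpotent_iff_lowerCentralSeries f.ker).1 (ker_nilpotent f hf hmin)
      have hall : ∀ i, U ≤ f.ker.lowerCentralSeries i := by
        intro i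
        induction i with
        | zero => exact hUk
        | succ i ih =>
          rw [Subgroup.lowerCentralSeries_succ]
          exact heq.ge.trans (Subgroup.commutator_mono ih le_rfl)
      exact hUc ((hn ▸ hall n).trans bot_le)
    intro k hk u hu
    have h1 := hle (Subgroup.commutator_mem_commutator hu hk)
    rw [commutatorElement_def] at h1
    have h2 := (center K).inv_mem h1
    simpa [mul_assoc] using h2
  let Z : Subgroup U := (center K).subgroupOf U
  haveI hZn : Z.Normal := Subgroup.Normal.subgroupOf inferInstance _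
  -- the quotient is abelian
  have hab : ∀ a b : U ⧸ Z, a * b = b * a := by
    intro a b
    induction a using QuotientGroup.induction_on with
    | H a =>
      induction b using QuotientGroup.induction_on with
      | H b =>
        rw [← QuotientGroup.mk_mul, ← QuotientGroup.mk_mul, QuotientGroup.eq]
        show ((((a * b)⁻¹ * (b * a) : U)) : K) ∈ center K
        have := hcomm (b : K)⁻¹ (hUk (U.inv_mem b.2)) (a : K)⁻¹ (U.inv_mem a.2)
        simpa [mul_assoc] using this
  letI : CommGroup (U ⧸ Z) := { (inferInstance : Group (U ⧸ Z)) with mul_comm := hab }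
  -- some element outside the centre has `p`-th power in it
  have hexp : ∀ v : U ⧸ Z, v ^ p = 1 := by
    have hUp : IsPGroup p U := hP₀p.to_le hUP
    let T : Subgroup K :=
      { carrier := {u | ∃ hu : u ∈ U, ((⟨u, hu⟩ : U) : U ⧸ Z) ^ p = 1}
        one_mem' := ⟨U.one_mem, by
          rw [show (⟨(1 : K), U.one_mem⟩ : U) = 1 from rfl, QuotientGroup.mk_one, one_pow]⟩
        mul_mem' := by
          rintro a b ⟨ha, ha'⟩ ⟨hb, hb'⟩
          refine ⟨U.mul_mem ha hb, ?_⟩
          rw [show (⟨a * b, U.mul_mem ha hb⟩ : U) = ⟨a, ha⟩ * ⟨b, hb⟩ from rfl,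
            QuotientGroup.mk_mul, mul_pow, ha', hb', one_mul]
        inv_mem' := by
          rintro a ⟨ha, ha'⟩
          refine ⟨U.inv_mem ha, ?_⟩
          rw [show (⟨a⁻¹, U.inv_mem ha⟩ : U) = (⟨a, ha⟩ : U)⁻¹ from rfl, QuotientGroup.mk_inv,
            inv_pow, ha', inv_one] }
    have hTn : T.Normal := by
      constructor
      rintro a ⟨ha, ha'⟩ g
      refine ⟨hUn.conj_mem a ha g, ?_⟩
      rw [← QuotientGroup.mk_pow, QuotientGroup.eq_one_iff] at ha' ⊢
      have ha'' : a ^ p ∈ center K := ha'
      show (g * a * g⁻¹) ^ p ∈ center K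
      rw [conj_pow]
      exact (inferInstance : (center K).Normal).conj_mem _ ha'' g
    have hTU : T ≤ U := fun u hu => hu.1
    have hTeq : T = U := by
      by_contra hne
      obtain ⟨u, hu, huc⟩ := SetLike.not_le_iff_exists.1 hUc
      have key : ∀ k : ℕ, u ^ p ^ k ∈ center K → False := by
        intro k
        induction k with
        | zero => simpa using huc
        | succ k ih =>
          intro hk
          refine ih (hsmall T hTn hTU hne ⟨U.pow_mem hu _, ?_⟩)
          rw [← QuotientGroup.mk_pow, QuotientGroup.eq_one_iff]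
          show (u ^ p ^ k) ^ p ∈ center K
          rwa [← pow_mul, ← pow_succ]
      obtain ⟨k, hk⟩ := hUp ⟨u, hu⟩
      exact key k (by
        have : u ^ p ^ k = 1 := congrArg Subtype.val hk
        rw [this]; exact one_mem _)
    intro v
    induction v using QuotientGroup.induction_on with
    | H v =>
      obtain ⟨hv, hv'⟩ : (v : K) ∈ T := hTeq.ge v.2
      exact hv'
  -- the action of `A`
  have hwd : ∀ (k : K) (u : U), k * (u : K) * k⁻¹ ∈ U := fun k u => hUn.conj_mem _ u.2 _
  let conjU : K → (U ⧸ Z) →* (U ⧸ Z) := fun k => QuotientGroup.map Z Z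
    { toFun := fun u => ⟨k * u * k⁻¹, hwd k u⟩
      map_one' := Subtype.ext (by simp)
      map_mul' := fun a b => Subtype.ext (by simp [mul_assoc]) }
    (fun u hu => (inferInstance : (center K).Normal).conj_mem _ hu k)
  have hconj_mk : ∀ (k : K) (u : U), conjU k (u : U ⧸ Z) = ((⟨k * u * k⁻¹, hwd k u⟩ : U) : U ⧸ Z) :=
    fun k u => rfl
  have hindep : ∀ k l : K, f k = f l → conjU k = conjU l := by
    intro k l hkl
    refine QuotientGroup.monoidHom_ext _ (MonoidHom.ext fun u => ?_)
    show conjU k (u : U ⧸ Z) = conjU l (u : U ⧸ Z)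
    rw [hconj_mk, hconj_mk, QuotientGroup.eq]
    show (k * (u : K) * k⁻¹)⁻¹ * (l * u * l⁻¹) ∈ center K
    have hn : k⁻¹ * l ∈ f.ker := by
      rw [MonoidHom.mem_ker, map_mul, map_inv, hkl, inv_mul_cancel]
    have h1 := hcomm _ hn (u : K) u.2
    have h2 := (inferInstance : (center K).Normal).conj_mem _ h1 (k * (u : K)⁻¹)
    have he : k * (u : K)⁻¹ * (k⁻¹ * l * u * (k⁻¹ * l)⁻¹ * (u : K)⁻¹) * (k * (u : K)⁻¹)⁻¹
        = (k * u * k⁻¹)⁻¹ * (l * u * l⁻¹) := by group
    rwa [he] at h2
  let σ : A → K := Function.surjInv hf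
  have hσ : ∀ a, f (σ a) = a := Function.surjInv_eq hf
  have hsec : ∀ k : K, conjU (σ (f k)) = conjU k := fun k => hindep _ _ (hσ _)
  letI act : DistribMulAction A (Additive (U ⧸ Z)) :=
    { smul := fun a v => Additive.ofMul (conjU (σ a) (Additive.toMul v))
      one_smul := fun v => by
        show Additive.ofMul (conjU (σ 1) (Additive.toMul v)) = v
        rw [hindep (σ 1) 1 (by rw [hσ, map_one])]
        obtain ⟨w, rfl⟩ := Additive.ofMul.surjective v
        induction w using QuotientGroup.induction_on with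
        | H u => exact congrArg Additive.ofMul (by rw [toMul_ofMul, hconj_mk]; simp)
      mul_smul := fun a b v => by
        show Additive.ofMul (conjU (σ (a * b)) (Additive.toMul v))
          = Additive.ofMul (conjU (σ a) (conjU (σ b) (Additive.toMul v)))
        rw [hindep (σ (a * b)) (σ a * σ b) (by rw [hσ, map_mul, hσ, hσ])]
        obtain ⟨w, rfl⟩ := Additive.ofMul.surjective v
        induction w using QuotientGroup.induction_on with
        | H u =>
          rw [toMul_ofMul, hconj_mk, hconj_mk, hconj_mk]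
          congr 3
          simp [mul_assoc]
      smul_zero := fun a => congrArg Additive.ofMul (map_one (conjU (σ a)))
      smul_add := fun a v w => congrArg Additive.ofMul (map_mul (conjU (σ a)) _ _) }
  haveI : Nontrivial (Additive (U ⧸ Z)) := by
    obtain ⟨u, hu, huc⟩ := SetLike.not_le_iff_exists.1 hUc
    refine ⟨⟨Additive.ofMul ((⟨u, hu⟩ : U) : U ⧸ Z), 0, fun h0 => huc ?_⟩⟩
    exact (QuotientGroup.eq_one_iff (⟨u, hu⟩ : U)).1 h0
  obtain ⟨v, hv, H, hH, hHv⟩ := hfix (Additive (U ⧸ Z)) (fun v => hexp (Additive.toMul v))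
  obtain ⟨w, rfl⟩ := Additive.ofMul.surjective v
  obtain ⟨x, rfl⟩ := QuotientGroup.mk_surjective w
  have hxc : (x : K) ∉ center K := fun hc => hv (congrArg Additive.ofMul
    ((QuotientGroup.eq_one_iff x).2 hc))
  refine contra_of_comm_central h (S := H.comap f) (x := (x : K))
    (not_solvable_of_map (f := f) hH (fun a ha => ?_)) hxc
    (order_of_mem_pGroup hP₀p (hUP x.2)) (fun k hk => ?_)
  · obtain ⟨k, rfl⟩ := hf a
    exact ⟨k, ha, rfl⟩
  · have h1 : Additive.ofMul (conjU (σ (f k)) (x : U ⧸ Z)) = Additive.ofMul (x : U ⧸ Z) :=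
      hHv (f k) hk
    rw [hsec, hconj_mk] at h1
    have h2 := (QuotientGroup.eq.1 (Additive.ofMul.injective h1))
    have h3 : (k * (x : K) * k⁻¹)⁻¹ * x ∈ center K := h2
    have h4 := (inferInstance : (center K).Normal).conj_mem _ ((center K).inv_mem h3) (x : K)
    simpa [mul_assoc] using h4

end Cfsg.Agent.AltMod
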