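import Cfsg.Agent.Lib.AltModule.Arith
import Mathlib.GroupTheory.SpecificGroups.Alternating
import Mathlib.Data.List.GetD
import Mathlib.Algebra.BigOperators.GroupWithZero.Action

/-!
Certificates that induced modules of alternating groups are killed by the fixed spaces of given
subgroups.  Group elements are words in the three-cycles `(0 1 k)`; vectors are packed numbers.
-/

namespace Cfsg.Agent.AltMod

open Equiv

/-- the three-cycle `(0 1 k)` on natural numbers -/
def tApp (k x : ℕ) : ℕ :=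
  bif Nat.beq x 0 then 1 else bif Nat.beq x 1 then k else bif Nat.beq x k then 0 else x

def wApp (w : List ℕ) (x : ℕ) : ℕ := w.foldr tApp x

/-- the alternating group -/
abbrev Alt (m : ℕ) := ↥(alternatingGroup (Fin m))

/-- the three-cycle `(0 1 k)` -/
def tP (m k : ℕ) : Alt m :=
  if h : 2 ≤ k ∧ k < m then
    ⟨swap ⟨0, by omega⟩ ⟨k, h.2⟩ * swap ⟨0, by omega⟩ ⟨1, by omega⟩, by
      have h1 : (⟨0, by omega⟩ : Fin m) ≠ ⟨k, h.2⟩ := by simp; omega
      have h2 : (⟨0, by omega⟩ : Fin m) ≠ ⟨1, by omega⟩ := by simp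
      rw [Perm.mem_alternatingGroup, map_mul, Perm.sign_swap h1, Perm.sign_swap h2]
      rfl⟩
  else 1

def wP (m : ℕ) (w : List ℕ) : Alt m := (w.map (tP m)).prod

lemma wP_cons (m k : ℕ) (w : List ℕ) : wP m (k :: w) = tP m k * wP m w := by simp [wP]

@[simp] lemma wP_nil (m : ℕ) : wP m [] = 1 := rfl

lemma wP_append (m : ℕ) (u w : List ℕ) : wP m (u ++ w) = wP m u * wP m w := by simp [wP]

/-- a letter -/
def lok (m k : ℕ) : Bool := Nat.ble 2 k && Nat.ble (k + 1) m

def wok (m : ℕ) (w : List ℕ) : Bool := w.all (lok m)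

lemma lok_iff {m k : ℕ} : lok m k = true ↔ 2 ≤ k ∧ k < m := by
  rw [lok, Bool.and_eq_true, Nat.ble_eq, Nat.ble_eq]; rfl

lemma tP_apply {m k : ℕ} (h : lok m k = true) (x : Fin m) :
    (((tP m k : Alt m) : Perm (Fin m)) x : ℕ) = tApp k x := by
  obtain ⟨h2, hk⟩ := lok_iff.1 h
  have hv : ((tP m k : Alt m) : Perm (Fin m))
      = swap ⟨0, by omega⟩ ⟨k, hk⟩ * swap ⟨0, by omega⟩ ⟨1, by omega⟩ := by
    simp [tP, h2, hk]
  rw [hv, Perm.mul_apply, swap_apply_def, swap_apply_def,
    show tApp k x = if (x : ℕ) = 0 then 1 else if (x : ℕ) = 1 then k else if (x : ℕ) = k then 0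
      else (x : ℕ) from by simp [tApp, Bool.cond_eq_ite]]
  simp only [Fin.ext_iff]
  split_ifs <;> simp_all <;> omega

lemma wP_apply {m : ℕ} : ∀ {w : List ℕ}, wok m w = true → ∀ x : Fin m,
    (((wP m w : Alt m) : Perm (Fin m)) x : ℕ) = wApp w x
  | [], _, x => by simp [wApp]
  | k :: w, h, x => by
    simp only [wok, List.all_cons, Bool.and_eq_true] at h
    rw [wP_cons, Subgroup.coe_mul, Perm.mul_apply, tP_apply h.1, wP_apply h.2]
    rfl

/-- two words define the same element -/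
def weq (m : ℕ) (u w : List ℕ) : Bool :=
  wok m u && wok m w && (List.range m).all fun x => Nat.beq (wApp u x) (wApp w x)

lemma weq_sound {m : ℕ} {u w : List ℕ} (h : weq m u w = true) : wP m u = wP m w := by
  simp only [weq, Bool.and_eq_true, List.all_eq_true, List.mem_range] at h
  refine Subtype.ext (Equiv.ext fun x => Fin.ext ?_)
  rw [wP_apply h.1.1, wP_apply h.1.2]
  exact Nat.eq_of_beq_eq_true (h.2 x x.2)

/-- a module induced from a matrix representation of a subgroup -/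
structure Mod where
  /-- the degree of the alternating subgroup acting -/
  n : ℕ
  r : ℕ
  nb : ℕ
  inner : List (List ℕ × List C8)
  reps : List (List ℕ)
  tbl : List (List (ℕ × List ℕ))

namespace Mod

variable (p : ℕ) (M : Mod)

def W (s : ℕ) : List ℕ := (M.inner.getD s ([], [])).1

def cols (s : ℕ) : List C8 := (M.inner.getD s ([], [])).2

def conc (u : List ℕ) : List ℕ := u.flatMap M.W

def d : ℕ := M.r * M.nb

noncomputable def appU (u : List ℕ) (X : ℕ) : ℕ :=
  u.foldr (fun s acc => red p M.r (dot8 (M.cols s) acc)) (red p M.r X)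

noncomputable def appG (k X : ℕ) : ℕ :=
  join M.r ((M.tbl.getD (k - 2) []).map fun iu => M.appU p iu.2 (blk M.r iu.1 X))

noncomputable def appW (w : List ℕ) (X : ℕ) : ℕ := w.foldr (M.appG p) X

noncomputable def innerOk (m : ℕ) : Bool :=
  M.inner.all fun Wc => wok m Wc.1 && Nat.ble M.r (flat Wc.2).length
    && Nat.ble ((flat Wc.2).length * ((p - 1) * (p - 1)) + 1) 65536
    && (List.range (flat Wc.2).length).all fun j => okb (p - 1) M.r ((flat Wc.2).getD j 0)

noncomputable def tblOk (m : ℕ) : Bool :=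
  (List.range (M.n - 2)).all fun k =>
    ((M.tbl.getD k []).map Prod.fst).isPerm (List.range M.nb) &&
    (List.range M.nb).all fun j =>
      let iu := (M.tbl.getD k []).getD j (0, [])
      iu.2.all (fun s => Nat.ble (s + 1) M.inner.length) &&
      weq m ((k + 2) :: M.reps.getD iu.1 []) (M.reps.getD j [] ++ M.conc iu.2)

noncomputable def ok (m : ℕ) : Bool :=
  Nat.ble 1 M.r && Nat.ble 1 p && Nat.ble p 65536 && Nat.ble 2 m && M.innerOk p m && M.tblOk m

variable {p M} {m : ℕ} {V : Type*} [AddCommGroup V] [DistribMulAction (Alt m) V]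

/-- `φ` intertwines the inner generators -/
def Inter (M : Mod) (φ : ℕ → V) (m : ℕ) [DistribMulAction (Alt m) V] : Prop :=
  ∀ s < M.inner.length, ∀ a < M.r,
    wP m (M.W s) • φ a = ev φ M.r ((flat (M.cols s)).getD a 0)

/-- the induced basis -/
def ψ (M : Mod) (φ : ℕ → V) (m : ℕ) [DistribMulAction (Alt m) V] (k : ℕ) : V :=
  wP m (M.reps.getD (k / M.r) []) • φ (k % M.r)

lemma ok_r (h : M.ok p m = true) : 0 < M.r ∧ 0 < p ∧ p ≤ 65536 := by
  simp only [ok, Bool.and_eq_true, Nat.ble_eq] at h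
  omega

lemma inner_spec (h : M.ok p m = true) {s : ℕ} (hs : s < M.inner.length) :
    wok m (M.W s) = true ∧ M.r ≤ (flat (M.cols s)).length ∧
    (flat (M.cols s)).length * ((p - 1) * (p - 1)) < 65536 ∧
    ∀ x ∈ flat (M.cols s), Ok (p - 1) M.r x := by
  simp only [ok, innerOk, Bool.and_eq_true, List.all_eq_true, List.mem_range, Nat.ble_eq] at h
  obtain ⟨⟨⟨h1, h2⟩, h3⟩, h4⟩ := h.1.2 _ (List.getElem_mem hs)
  simp only [W, cols, List.getD_eq_getElem _ _ hs]
  refine ⟨h1, h2, by omega, fun x hx => ?_⟩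
  obtain ⟨j, hj, rfl⟩ := List.getElem_of_mem hx
  have := ok_of_okb (h4 j hj)
  rwa [List.getD_eq_getElem _ _ hj] at this

lemma smul_ev (g : Alt m) (φ : ℕ → V) (d X : ℕ) : g • ev φ d X = ev (fun k => g • φ k) d X :=
  ev_map (DistribSMul.toAddMonoidHom V g) φ d X

lemma ev_of_lt (φ : ℕ → V) {r L c : ℕ} (hc : c < 65536 ^ r) (hrL : r ≤ L) :
    ev φ L c = ev φ r c := by
  obtain ⟨e, rfl⟩ := Nat.exists_eq_add_of_le hrL
  rw [ev_split, Nat.div_eq_of_lt hc, ev_zero_right, add_zero]

lemma ok_of_lt {b r L c : ℕ} (hc : c < 65536 ^ r) (hrL : r ≤ L) (h : Ok b r c) : Ok b L c := by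
  obtain ⟨e, rfl⟩ := Nat.exists_eq_add_of_le hrL
  refine ok_split _ _ _ _ h ?_
  rw [Nat.div_eq_of_lt hc]
  exact ok_zero _ _

lemma appU_spec (hV : ∀ v : V, p • v = 0) (h : M.ok p m = true) {φ : ℕ → V} (hφ : M.Inter φ m) :
    ∀ (u : List ℕ), (∀ s ∈ u, s < M.inner.length) → ∀ X : ℕ,
    ev φ M.r (M.appU p u X) = wP m (M.conc u) • ev φ M.r X
      ∧ Ok (p - 1) M.r (M.appU p u X) ∧ M.appU p u X < 65536 ^ M.r := by
  intro u
  obtain ⟨hr, hp, hp'⟩ := ok_r h
  induction u with
  | nil =>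
    intro _ X
    obtain ⟨h1, h2, h3⟩ := red_spec hp hp' hV φ M.r X
    exact ⟨by simpa [appU, conc] using h1, h2, h3⟩
  | cons s u ih =>
    intro hu X
    obtain ⟨he, ho, hlt⟩ := ih (fun t ht => hu t (by simp [ht])) X
    have hs := hu s (by simp)
    obtain ⟨_, hlen, hb, hcols⟩ := inner_spec h hs
    have hdef : M.appU p (s :: u) X = red p M.r (dot8 (M.cols s) (M.appU p u X)) := rfl
    obtain ⟨r1, r2, r3⟩ := red_spec hp hp' hV φ M.r (dot8 (M.cols s) (M.appU p u X))
    rw [hdef]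
    refine ⟨?_, r2, r3⟩
    rw [r1, dot8_eq, (dotL_spec φ _ _ hcols (ok_of_lt hlt hlen ho) hb).1, ev_of_lt _ hlt hlen]
    rw [show M.conc (s :: u) = M.W s ++ M.conc u by simp [conc], wP_append, mul_smul, ← he,
      smul_ev]
    exact ev_congr (fun a ha => (hφ s hs a ha).symm) _

lemma psi_block (φ : ℕ → V) (hr : 0 < M.r) {i a : ℕ} (ha : a < M.r) :
    M.ψ φ m (M.r * i + a) = wP m (M.reps.getD i []) • φ a := by
  rw [ψ, Nat.mul_add_div hr, Nat.div_eq_of_lt ha, add_zero, Nat.mul_add_mod, Nat.mod_eq_of_lt ha]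

lemma ev_psi_block (φ : ℕ → V) (hr : 0 < M.r) (i X : ℕ) :
    ev (fun a => M.ψ φ m (M.r * i + a)) M.r X = wP m (M.reps.getD i []) • ev φ M.r X := by
  rw [smul_ev]
  exact ev_congr (fun a ha => psi_block φ hr ha) _

lemma appG_spec (hV : ∀ v : V, p • v = 0) (h : M.ok p m = true) {φ : ℕ → V} (hφ : M.Inter φ m)
    {k : ℕ} (hk : lok M.n k = true) (X : ℕ) :
    ev (M.ψ φ m) M.d (M.appG p k X) = tP m k • ev (M.ψ φ m) M.d X
      ∧ Ok (p - 1) M.d (M.appG p k X) := by
  obtain ⟨hr, hp, hp'⟩ := ok_r h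
  obtain ⟨hk2, hkm⟩ := lok_iff.1 hk
  have hT := h
  simp only [ok, tblOk, Bool.and_eq_true, List.all_eq_true, List.mem_range, Nat.ble_eq,
    List.isPerm_iff] at hT
  obtain ⟨hperm, hT⟩ := hT.2 (k - 2) (by omega)
  rw [show k - 2 + 2 = k by omega] at hT
  simp only [Mod.appG]
  set T := M.tbl.getD (k - 2) [] with hTdef
  have hlen : T.length = M.nb := by simpa using hperm.length_eq
  have hin : ∀ j, j < M.nb → ∀ s ∈ (T.getD j (0, [])).2, s < M.inner.length :=
    fun j hj s hs => by have := (hT j hj).1 s hs; omega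
  have hall : ∀ x ∈ T.map (fun iu => M.appU p iu.2 (blk M.r iu.1 X)),
      x < 65536 ^ M.r ∧ Ok (p - 1) M.r x := by
    intro x hx
    obtain ⟨iu, hiu, rfl⟩ := List.mem_map.1 hx
    obtain ⟨j, hj, rfl⟩ := List.getElem_of_mem hiu
    have := appU_spec hV h hφ T[j].2
      (by simpa [hj] using hin j (hlen ▸ hj)) (blk M.r T[j].1 X)
    exact ⟨this.2.2, this.2.1⟩
  obtain ⟨hje, hjo⟩ := join_spec (M.ψ φ m) M.r (p - 1) _ hall
  rw [List.length_map, hlen] at hje hjo
  refine ⟨?_, hjo⟩
  let g : ℕ → ℕ := fun j => (T.getD j (0, [])).1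
  let F : ℕ → V := fun i =>
    (tP m k * wP m (M.reps.getD i [])) • ev φ M.r (blk M.r i X)
  have hterm : ∀ j ∈ Finset.range M.nb,
      ev (fun a => M.ψ φ m (M.r * j + a)) M.r
        ((T.map (fun iu => M.appU p iu.2 (blk M.r iu.1 X))).getD j 0) = F (g j) := by
    intro j hj
    rw [Finset.mem_range] at hj
    have hj' : j < T.length := by omega
    have he := (appU_spec hV h hφ (T.getD j (0, [])).2 (hin j hj)
      (blk M.r (T.getD j (0, [])).1 X)).1
    have hw := weq_sound (hT j hj).2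
    rw [List.getD_eq_getElem _ _ (by simpa using hj'), List.getElem_map, ev_psi_block φ hr]
    rw [List.getD_eq_getElem _ _ hj'] at he hw
    rw [he, ← mul_smul, ← wP_append, ← hw, wP_cons]
    simp only [F, g, List.getD_eq_getElem _ _ hj']
  rw [Mod.d, hje, Finset.sum_congr rfl hterm, ev_blocks, Finset.smul_sum]
  have hmap : (List.range M.nb).map g = T.map Prod.fst := by
    refine List.ext_getElem (by simp [hlen]) fun j h1 h2 => ?_
    simp only [List.length_map] at h2
    simp [g, h2]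
  have hsum : ((List.range M.nb).map (fun j => F (g j))).sum
      = ((List.range M.nb).map F).sum := by
    have := (hperm.map F).sum_eq
    rw [← hmap, List.map_map] at this
    exact this
  calc ∑ j ∈ Finset.range M.nb, F (g j) = ((List.range M.nb).map (fun j => F (g j))).sum := rfl
    _ = ((List.range M.nb).map F).sum := hsum
    _ = ∑ i ∈ Finset.range M.nb, F i := rfl
    _ = _ := Finset.sum_congr rfl fun i _ => by
      rw [ev_psi_block φ hr, ← mul_smul]

lemma appW_spec (hV : ∀ v : V, p • v = 0) (h : M.ok p m = true) {φ : ℕ → V} (hφ : M.Inter φ m) :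
    ∀ w : List ℕ, wok M.n w = true → ∀ X : ℕ,
    ev (M.ψ φ m) M.d (M.appW p w X) = wP m w • ev (M.ψ φ m) M.d X := by
  intro w
  induction w with
  | nil => intro _ X; simp [appW]
  | cons k w ih =>
    intro hw X
    simp only [wok, List.all_cons, Bool.and_eq_true] at hw
    have hdef : M.appW p (k :: w) X = M.appG p k (M.appW p w X) := rfl
    rw [hdef, (appG_spec hV h hφ hw.1 _).1, ih hw.2, wP_cons, mul_smul]

end Mod

end Cfsg.Agent.AltMod
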