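import Cfsg.Agent.Lib.AltModule.Steps
import Mathlib.GroupTheory.Solvable

/-!
Kernel-checked certificates that two elements generate a nonsolvable group.
-/

namespace Cfsg.Agent.AltMod

/-- the word of `w` in the pair `h` -/
def pairWord (h : List ℕ × List ℕ) (w : List Bool) : List ℕ :=
  w.flatMap fun b => if b then h.2 else h.1

/-- the images of `0, …, m - 1` under a word -/
def imgs (m : ℕ) (w : List ℕ) : List ℕ := (List.range m).map (wApp w)

/-- the image of `x` under a word in the pair of image lists -/
def imgApp (T : List ℕ × List ℕ) (w : List Bool) (x : ℕ) : ℕ :=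
  w.foldr (fun b y => (bif b then T.2 else T.1).getD y 0) x

/-- two words in the pair define the same element -/
def peq (m : ℕ) (h : List ℕ × List ℕ) (u w : List Bool) : Bool :=
  wok m h.1 && wok m h.2 && (List.range m).all fun x =>
    Nat.beq (imgApp (imgs m h.1, imgs m h.2) u x) (imgApp (imgs m h.1, imgs m h.2) w x)

/-- `z` is the commutator of the first two members of `L`, whose inverses are the last two -/
def commOk (m : ℕ) (h : List ℕ × List ℕ) (L : List (List Bool)) (z : List Bool) : Bool :=
  peq m h (L.getD 0 [] ++ L.getD 2 []) [] &&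
  peq m h (L.getD 1 [] ++ L.getD 3 []) [] &&
  peq m h z (L.getD 0 [] ++ L.getD 1 [] ++ L.getD 2 [] ++ L.getD 3 [])

def perfectOk (m : ℕ) (subs : List (List ℕ × List ℕ))
    (C : List (List (List Bool) × List (List Bool))) : Bool :=
  (List.range subs.length).all fun i =>
    let h := subs.getD i ([], [])
    let c := C.getD i ([], [])
    commOk m h c.1 [false] && commOk m h c.2 [true] &&
      (List.range m).any fun x => !(Nat.beq (wApp h.1 x) x) && wok m h.1

/-- the subgroup generated by a pair of words -/
def pairGrp (m : ℕ) (h : List ℕ × List ℕ) : Subgroup (Alt m) :=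
  Subgroup.closure {wP m h.1, wP m h.2}

lemma pairWord_mem (m : ℕ) (h : List ℕ × List ℕ) (w : List Bool) :
    wP m (pairWord h w) ∈ pairGrp m h := by
  induction w with
  | nil => simp [pairWord]
  | cons b w ih =>
    have he : pairWord h (b :: w) = (if b then h.2 else h.1) ++ pairWord h w := rfl
    rw [he, wP_append]
    refine mul_mem ?_ ih
    cases b <;> exact Subgroup.subset_closure (by simp)

lemma pairWord_append (h : List ℕ × List ℕ) (u w : List Bool) :
    pairWord h (u ++ w) = pairWord h u ++ pairWord h w := by
  simp [pairWord]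

lemma peq_sound {m : ℕ} {h : List ℕ × List ℕ} {u w : List Bool} (hp : peq m h u w = true) :
    wP m (pairWord h u) = wP m (pairWord h w) := by
  simp only [peq, Bool.and_eq_true, List.all_eq_true, List.mem_range] at hp
  obtain ⟨⟨h1, h2⟩, hx⟩ := hp
  have key : ∀ (v : List Bool) (x : Fin m),
      imgApp (imgs m h.1, imgs m h.2) v x = (((wP m (pairWord h v) : Alt m) : Equiv.Perm (Fin m)) x : ℕ) := by
    intro v
    induction v with
    | nil => intro x; simp [imgApp, pairWord]
    | cons b v ih =>
      intro x
      have he : pairWord h (b :: v) = (if b then h.2 else h.1) ++ pairWord h v := rfl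
      have hd : imgApp (imgs m h.1, imgs m h.2) (b :: v) x =
          (bif b then imgs m h.2 else imgs m h.1).getD (imgApp (imgs m h.1, imgs m h.2) v x) 0 := rfl
      rw [hd, ih x, he, wP_append, Subgroup.coe_mul, Equiv.Perm.mul_apply]
      cases b
      · simp [imgs, wP_apply h1]
      · simp [imgs, wP_apply h2]
  refine Subtype.ext (Equiv.ext fun x => Fin.ext ?_)
  rw [← key, ← key]
  exact Nat.eq_of_beq_eq_true (hx x x.2)

lemma comm_mem {m : ℕ} {h : List ℕ × List ℕ} {L : List (List Bool)} {z : List Bool}
    (hc : commOk m h L z = true) :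
    wP m (pairWord h z) ∈ ⁅pairGrp m h, pairGrp m h⁆ := by
  simp only [commOk, Bool.and_eq_true] at hc
  obtain ⟨⟨h02, h13⟩, hz⟩ := hc
  have e02 := peq_sound h02
  have e13 := peq_sound h13
  have e := peq_sound hz
  simp only [pairWord_append, wP_append] at e02 e13 e
  have h0 : wP m (pairWord h ([] : List Bool)) = 1 := rfl
  rw [h0] at e02 e13
  rw [e, eq_inv_of_mul_eq_one_right e02, eq_inv_of_mul_eq_one_right e13, ← commutatorElement_def]
  exact Subgroup.commutator_mem_commutator (pairWord_mem m h _) (pairWord_mem m h _)

theorem not_solvable_pairGrp {m : ℕ} {subs : List (List ℕ × List ℕ)}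
    {C : List (List (List Bool) × List (List Bool))} (hok : perfectOk m subs C = true)
    {h : List ℕ × List ℕ} (hh : h ∈ subs) : ¬ IsSolvable (pairGrp m h) := by
  obtain ⟨i, hi, rfl⟩ := List.getElem_of_mem hh
  simp only [perfectOk, Bool.and_eq_true, List.all_eq_true, List.any_eq_true,
    List.mem_range, List.getD_eq_getElem subs ([], []) hi] at hok
  have hoki := hok i hi
  simp only [List.getD_eq_getElem subs ([], []) hi] at hoki
  obtain ⟨⟨hx, hy⟩, x, hxm, hne, hw⟩ := hoki
  set H := pairGrp m subs[i]
  have hcom : ⁅H, H⁆ = H := by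
    refine le_antisymm (Subgroup.commutator_le_self H) ?_
    show Subgroup.closure _ ≤ _
    rw [Subgroup.closure_le]
    rintro g (rfl | rfl)
    · simpa [pairWord] using comm_mem hx
    · simpa [pairWord] using comm_mem hy
  have hne1 : (⟨wP m subs[i].1, Subgroup.subset_closure (by simp)⟩ : H) ≠ 1 := by
    intro he
    have he' : wP m subs[i].1 = 1 := congrArg Subtype.val he
    have hv := wP_apply hw ⟨x, hxm⟩
    rw [he'] at hv
    have : x = wApp subs[i].1 x := hv
    have hb : Nat.beq (wApp subs[i].1 x) x = true := by rw [← this]; exact Nat.beq_refl x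
    simp [hb] at hne
  intro hsol
  obtain ⟨n, hn⟩ := hsol.solvable
  have hall : ∀ n, derivedSeries H n = ⊤ := by
    intro n
    induction n with
    | zero => rfl
    | succ n ih =>
      rw [derivedSeries_succ, ih]
      apply Subgroup.map_injective H.subtype_injective
      rw [Subgroup.map_commutator, ← MonoidHom.range_eq_map, Subgroup.range_subtype, hcom]
  rw [hall n] at hn
  have : (⟨wP m subs[i].1, Subgroup.subset_closure (by simp)⟩ : H) ∈ (⊥ : Subgroup H) :=
    hn ▸ Subgroup.mem_top _
  exact hne1 (Subgroup.mem_bot.1 this)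

end Cfsg.Agent.AltMod
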