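import Cfsg.Agent.Lib.AltModule.Perfect
import Mathlib.GroupTheory.PGroup

/-!
Nonzero modules in characteristic `p` have vectors fixed by listed nonsolvable subgroups, once an
induced module from a `p`-group is known to be killed.
-/

namespace Cfsg.Agent.AltMod

variable {m : ℕ} {V : Type*} [AddCommGroup V] [DistribMulAction (Alt m) V]

lemma exists_fixed_of_kills {p : ℕ} {subs : List (List ℕ × List ℕ)}
    {C : List (List (List Bool) × List (List Bool))} (hperf : perfectOk m subs C = true)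
    (M : Mod) (hr : M.r = 1)
    (hcols : ∀ s < M.inner.length, (flat (M.cols s)).getD 0 0 = 1)
    (hkills : (∀ v : V, p • v = 0) → Bad m V subs → Kills m V M)
    (hV : ∀ v : V, p • v = 0) {v₀ : V} (hv₀ : v₀ ≠ 0)
    (hfix : ∀ s < M.inner.length, wP m (M.W s) • v₀ = v₀) :
    ∃ v : V, v ≠ 0 ∧ ∃ H : Subgroup (Alt m), ¬ IsSolvable H ∧ ∀ h ∈ H, h • v = v := by
  by_contra hne
  have hbad : Bad m V subs := by
    intro h hh v h1 h2
    by_contra hv
    refine hne ⟨v, hv, pairGrp m h, not_solvable_pairGrp hperf hh, fun g hg => ?_⟩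
    induction hg using Subgroup.closure_induction with
    | mem g hg => rcases hg with rfl | rfl <;> assumption
    | one => exact one_smul _ _
    | mul a b _ _ ha hb => rw [mul_smul, hb, ha]
    | inv a _ ha => exact inv_smul_eq_iff.2 ha.symm
  refine hv₀ (hkills hV hbad (fun _ => v₀) (fun s hs a ha => ?_) 0 (by omega))
  obtain rfl : a = 0 := by omega
  rw [hcols s hs, hr]
  simp [ev, hfix s hs]

lemma exists_fixed_invol (hV : ∀ v : V, 2 • v = 0) {g : Alt m} (hg : g * g = 1) {v : V}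
    (hv : v ≠ 0) {S : Set (Alt m)} (hS : ∀ s ∈ S, s • v = v)
    (hnorm : ∀ s ∈ S, s • (g • v) = g • v) :
    ∃ w : V, w ≠ 0 ∧ (∀ s ∈ S, s • w = w) ∧ g • w = w := by
  by_cases h : g • v = v
  · exact ⟨v, hv, hS, h⟩
  · refine ⟨v + g • v, fun h0 => h ?_, fun s hs => by rw [smul_add, hS s hs, hnorm s hs], ?_⟩
    · have h2 : v + v = 0 := by rw [← two_nsmul]; exact hV v
      exact add_left_cancel (h0.trans h2.symm)
    · rw [smul_add, ← mul_smul, hg, one_smul, add_comm]

/-- a nonzero vector fixed by a four-group normalised by an involution -/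
lemma exists_fixed_two (hV : ∀ v : V, 2 • v = 0) [Nontrivial V] {a b c : Alt m} (ha : a * a = 1)
    (hb : b * b = 1) (hc : c * c = 1) (hab : a * b = b * a) (hac : a * c = c * a)
    (hbc : b * c = c * (a * b)) : ∃ v : V, v ≠ 0 ∧ a • v = v ∧ b • v = v ∧ c • v = v := by
  obtain ⟨v, hv⟩ := exists_ne (0 : V)
  obtain ⟨u, hu, -, hua⟩ := exists_fixed_invol hV ha hv (S := ∅) (by simp) (by simp)
  obtain ⟨w, hw, hwa, hwb⟩ := exists_fixed_invol hV hb hu (S := {a})
    (by simpa using hua) (by simp only [Set.mem_singleton_iff, forall_eq]; rw [← mul_smul, hab, mul_smul, hua])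
  simp only [Set.mem_singleton_iff, forall_eq] at hwa
  obtain ⟨z, hz, hzs, hzc⟩ := exists_fixed_invol hV hc hw (S := {a, b})
    (by simp [hwa, hwb]) (by
      rintro s (rfl | rfl)
      · rw [← mul_smul, hac, mul_smul, hwa]
      · rw [← mul_smul, hbc, mul_smul, mul_smul, hwb, hwa])
  exact ⟨z, hz, hzs a (by simp), hzs b (by simp), hzc⟩

/-- a nonzero vector fixed by an element of order dividing `p` -/
lemma exists_fixed_prime {p : ℕ} [Fact p.Prime] (hV : ∀ v : V, p • v = 0) [Nontrivial V] [Finite V]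
    {g : Alt m} (hg : g ^ p = 1) : ∃ v : V, v ≠ 0 ∧ g • v = v := by
  have hP : IsPGroup p (Subgroup.zpowers g) := by
    intro ⟨x, hx⟩
    obtain ⟨k, rfl⟩ := Subgroup.mem_zpowers_iff.1 hx
    refine ⟨1, Subtype.ext ?_⟩
    simp only [pow_one, SubgroupClass.coe_pow, OneMemClass.coe_one]
    rw [← zpow_natCast, ← zpow_mul, mul_comm, zpow_mul, zpow_natCast, hg, one_zpow]
  obtain ⟨v, hv⟩ := exists_ne (0 : V)
  have hcard : p ∣ Nat.card V := by
    have := addOrderOf_dvd_natCard v
    rwa [addOrderOf_eq_prime (hV v) hv] at this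
  obtain ⟨b, hb, hb0⟩ := hP.exists_fixed_point_of_prime_dvd_card_of_fixed_point V hcard
    (a := 0) (fun x => smul_zero (x : Alt m))
  exact ⟨b, hb0.symm, hb ⟨g, Subgroup.mem_zpowers g⟩⟩

end Cfsg.Agent.AltMod
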