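import Cfsg.Agent.Lib.AltModule.Cert

/-!
Steps of a certificate: spinning, fixed vectors, factors and the final combination.
-/

namespace Cfsg.Agent.AltMod

variable (m p : ℕ) (V : Type*) [AddCommGroup V] [DistribMulAction (Alt m) V]

/-- no nonzero vector is fixed by both members of one of the pairs -/
def Bad (subs : List (List ℕ × List ℕ)) : Prop :=
  ∀ h ∈ subs, ∀ v : V, wP m h.1 • v = v → wP m h.2 • v = v → v = 0

/-- every map intertwining the inner generators of `M` is zero -/
def Kills (M : Mod) : Prop :=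
  ∀ φ : ℕ → V, M.Inter φ m → ∀ a < M.r, φ a = 0

namespace Mod

variable (M : Mod)

/-- killed vectors -/
def AllKilled (φ : ℕ → V) (K : List ℕ) : Prop :=
  ∀ v ∈ K, ev (M.ψ φ m) M.d v = 0 ∧ Ok (p - 1) M.d v

/-- the edges in positions `lo, …, lo + n - 1` give images of earlier members -/
noncomputable def spinOk (v : ℕ) (E : List (ℕ × ℕ × ℕ)) (lo n : ℕ) : Bool :=
  (List.range n).all fun j =>
    let e := E.getD (lo + j) (0, 0, 0)
    Nat.ble e.1 (lo + j) && lok M.n e.2.1 &&
      Nat.beq (M.appG p e.2.1 ((v :: E.map fun x => x.2.2).getD e.1 0)) e.2.2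

/-- the vectors of a spin -/
def spinVecs (v : ℕ) (E : List (ℕ × ℕ × ℕ)) : List ℕ := v :: E.map fun x => x.2.2

/-- `h` fixes `v` modulo the vectors `K` -/
noncomputable def fixOk (h : List ℕ) (v : ℕ) (K : List ℕ) (c : ℕ) : Bool :=
  wok M.n h && okb (p - 1) K.length c && okb (p - 1) M.d v &&
    Nat.ble (p - 1 + K.length * ((p - 1) * (p - 1)) + 1) 65536 &&
    Nat.beq (M.appW p h v) (red p M.d (v + dotL K c))

/-- the generator `s` of the next module acts on the lifts by its matrix, modulo `K` -/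
noncomputable def factorOk (N : Mod) (lifts K : List ℕ) (s : ℕ) (C : List ℕ) : Bool :=
  Nat.beq lifts.length N.r && (List.range lifts.length).all (fun j => okb (p - 1) M.d (lifts.getD j 0)) && wok M.n (N.W s) &&
    Nat.ble ((lifts.length + K.length) * ((p - 1) * (p - 1)) + 1) 65536 &&
    (List.range N.r).all fun a =>
      let col := (flat (N.cols s)).getD a 0
      okb (p - 1) N.r col && okb (p - 1) K.length (C.getD a 0) &&
        Nat.beq (M.appW p (N.W s) (lifts.getD a 0))
          (red p M.d (dotL lifts col + dotL K (C.getD a 0)))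

/-- the first basis vector of the identity block is a combination of `K` -/
noncomputable def finalOk (i0 : ℕ) (K : List ℕ) (c : ℕ) : Bool :=
  weq m (M.reps.getD i0 []) [] && Nat.ble (i0 + 1) M.nb && okb (p - 1) K.length c &&
    Nat.ble (K.length * ((p - 1) * (p - 1)) + 1) 65536 &&
    Nat.beq (red p M.d (65536 ^ (M.r * i0))) (red p M.d (dotL K c))

/-- every inner basis vector is reached from the first -/
noncomputable def treeOk (T : List (ℕ × ℕ)) : Bool :=
  Nat.beq (T.length + 1) M.r && (List.range T.length).all fun j =>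
    let e := T.getD j (0, 0)
    Nat.ble e.1 j && Nat.ble (e.2 + 1) M.inner.length &&
      Nat.beq ((flat (M.cols e.2)).getD e.1 0) (65536 ^ (j + 1))

variable {m p V M}

lemma allKilled_nil (φ : ℕ → V) : M.AllKilled m p V φ [] := by simp [AllKilled]

lemma allKilled_append {φ : ℕ → V} {K L : List ℕ} (hK : M.AllKilled m p V φ K)
    (hL : M.AllKilled m p V φ L) : M.AllKilled m p V φ (K ++ L) :=
  fun v hv => (List.mem_append.1 hv).elim (hK v) (hL v)

lemma killed_comb {φ : ℕ → V} {K : List ℕ} (hK : M.AllKilled m p V φ K) {c : ℕ}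
    (hc : Ok (p - 1) K.length c) (hb : K.length * ((p - 1) * (p - 1)) < 65536) :
    ev (M.ψ φ m) M.d (dotL K c) = 0 ∧
      Ok (K.length * ((p - 1) * (p - 1))) M.d (dotL K c) := by
  obtain ⟨he, ho⟩ := dotL_spec (M.ψ φ m) K c (fun x hx => (hK x hx).2) hc hb
  refine ⟨he.trans (ev_eq_zero (fun t ht => ?_) c), ho⟩
  simp only [List.getD_eq_getElem _ _ ht]
  exact (hK _ (List.getElem_mem ht)).1

variable (hV : ∀ v : V, p • v = 0) (hM : M.ok p m = true)

include hV hM

lemma spin_killed {φ : ℕ → V} (hφ : M.Inter φ m) {v : ℕ} {E : List (ℕ × ℕ × ℕ)}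
    (h : ∀ i < (E.length + 49) / 50, M.spinOk p v E (50 * i) (min 50 (E.length - 50 * i)) = true)
    (hvo : okb (p - 1) M.d v = true) (hv : ev (M.ψ φ m) M.d v = 0) :
    M.AllKilled m p V φ (spinVecs v E) := by
  simp only [spinOk, Bool.and_eq_true, List.all_eq_true, List.mem_range, Nat.ble_eq] at h
  have hE : ∀ j < E.length, ((E.getD j (0, 0, 0)).1 ≤ j ∧ lok M.n (E.getD j (0, 0, 0)).2.1 = true)
      ∧ Nat.beq (M.appG p (E.getD j (0, 0, 0)).2.1
        ((v :: E.map fun x => x.2.2).getD (E.getD j (0, 0, 0)).1 0))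
          (E.getD j (0, 0, 0)).2.2 = true := by
    intro j hj
    have h' := h (j / 50) (by omega) (j % 50) (by omega)
    rwa [Nat.div_add_mod] at h'
  have key : ∀ j, j ≤ E.length → ev (M.ψ φ m) M.d ((spinVecs v E).getD j 0) = 0
      ∧ Ok (p - 1) M.d ((spinVecs v E).getD j 0) := by
    intro j
    induction j using Nat.strong_induction_on with
    | _ j ih =>
      intro hj
      cases j with
      | zero => exact ⟨by simpa [spinVecs] using hv, by simpa [spinVecs] using ok_of_okb hvo⟩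
      | succ j =>
        obtain ⟨⟨hpar, hk⟩, heq⟩ := hE j (by omega)
        have hlt : j < E.length := by omega
        have hval : (spinVecs v E).getD (j + 1) 0
            = M.appG p (E.getD j (0, 0, 0)).2.1
                ((spinVecs v E).getD (E.getD j (0, 0, 0)).1 0) := by
          rw [spinVecs, Nat.eq_of_beq_eq_true heq, List.getD_cons_succ]
          rw [List.getD_eq_getElem _ _ (by simpa using hlt), List.getD_eq_getElem _ _ hlt]
          simp
        obtain ⟨he, ho⟩ := appG_spec hV hM hφ hk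
          ((spinVecs v E).getD (E.getD j (0, 0, 0)).1 0)
        rw [hval]
        refine ⟨?_, ho⟩
        rw [he, (ih _ (by omega) (by omega)).1, smul_zero]
  intro x hx
  obtain ⟨j, hj, rfl⟩ := List.getElem_of_mem hx
  rw [← List.getD_eq_getElem _ 0 hj]
  exact key j (by simp only [spinVecs, List.length_cons, List.length_map] at hj; omega)

lemma fix_sound {φ : ℕ → V} (hφ : M.Inter φ m) {h : List ℕ} {v c : ℕ} {K : List ℕ}
    (hf : M.fixOk p h v K c = true) (hK : M.AllKilled m p V φ K) :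
    wP m h • ev (M.ψ φ m) M.d v = ev (M.ψ φ m) M.d v := by
  obtain ⟨hr, hp, hp'⟩ := ok_r hM
  simp only [fixOk, Bool.and_eq_true, Nat.ble_eq] at hf
  obtain ⟨⟨⟨⟨hw, hc⟩, hv⟩, hb⟩, heq⟩ := hf
  obtain ⟨hk0, hko⟩ := killed_comb hK (ok_of_okb hc) (by omega)
  rw [← appW_spec hV hM hφ h hw, Nat.eq_of_beq_eq_true heq, (red_spec hp hp' hV _ _ _).1,
    (add_lanes _ (ok_of_okb hv) hko (by omega)).1, hk0, add_zero]

lemma spin_step {subs : List (List ℕ × List ℕ)} (hbad : Bad m V subs) {φ : ℕ → V}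
    (hφ : M.Inter φ m) {h : List ℕ × List ℕ} (hh : h ∈ subs) {v : ℕ} {E : List (ℕ × ℕ × ℕ)}
    {K : List ℕ} {c₁ c₂ : ℕ} (h₁ : M.fixOk p h.1 v K c₁ = true)
    (h₂ : M.fixOk p h.2 v K c₂ = true)
    (hs : ∀ i < (E.length + 49) / 50, M.spinOk p v E (50 * i) (min 50 (E.length - 50 * i)) = true)
    (hK : M.AllKilled m p V φ K) : M.AllKilled m p V φ (spinVecs v E) :=
  spin_killed hV hM hφ hs (by
      simp only [fixOk, Bool.and_eq_true] at h₁
      exact h₁.1.1.2)
    (hbad h hh _ (fix_sound hV hM hφ h₁ hK) (fix_sound hV hM hφ h₂ hK))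

lemma factor_step {N : Mod} (hN : Kills m V N) {φ : ℕ → V} (hφ : M.Inter φ m)
    {lifts K : List ℕ} {C : List (List ℕ)}
    (h : ∀ s < N.inner.length, M.factorOk p N lifts K s (C.getD s []) = true)
    (hK : M.AllKilled m p V φ K) (hne : 0 < N.inner.length) :
    M.AllKilled m p V φ lifts := by
  obtain ⟨hr, hp, hp'⟩ := ok_r hM
  have h0 := h 0 hne
  simp only [factorOk, Bool.and_eq_true, List.all_eq_true, List.mem_range] at h0
  have hlen : lifts.length = N.r := Nat.eq_of_beq_eq_true h0.1.1.1.1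
  have hlo : ∀ x ∈ lifts, Ok (p - 1) M.d x := fun x hx => by
    obtain ⟨j, hj, rfl⟩ := List.getElem_of_mem hx
    have := ok_of_okb (h0.1.1.1.2 j hj)
    rwa [List.getD_eq_getElem _ _ hj] at this
  let χ : ℕ → V := fun a => ev (M.ψ φ m) M.d (lifts.getD a 0)
  have hχ : N.Inter χ m := by
    intro s hs a ha
    have hsa := h s hs
    simp only [factorOk, Bool.and_eq_true, List.all_eq_true, List.mem_range, Nat.ble_eq] at hsa
    obtain ⟨⟨⟨_, hw⟩, hb⟩, hall⟩ := hsa
    obtain ⟨⟨hcol, hc⟩, heq⟩ := hall a ha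
    have hb1 : lifts.length * ((p - 1) * (p - 1)) ≤
        (lifts.length + K.length) * ((p - 1) * (p - 1)) := Nat.mul_le_mul_right _ (by omega)
    have hb2 := Nat.add_mul lifts.length K.length ((p - 1) * (p - 1))
    obtain ⟨hk0, hko⟩ := killed_comb hK (ok_of_okb hc) (by omega)
    obtain ⟨hle, hlo'⟩ := dotL_spec (M.ψ φ m) lifts _ hlo
      (hlen ▸ ok_of_okb hcol : Ok (p - 1) lifts.length ((flat (N.cols s)).getD a 0)) (by omega)
    simp only [χ]
    rw [← appW_spec hV hM hφ _ hw, Nat.eq_of_beq_eq_true heq, (red_spec hp hp' hV _ _ _).1,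
      (add_lanes _ hlo' hko (by omega)).1, hk0, add_zero, hle, hlen]
  intro x hx
  obtain ⟨a, ha, rfl⟩ := List.getElem_of_mem hx
  refine ⟨?_, hlo _ hx⟩
  have := hN χ hχ a (hlen ▸ ha)
  simpa only [χ, List.getD_eq_getElem _ _ ha] using this

lemma final_step {φ : ℕ → V} (hφ : M.Inter φ m) {i0 c : ℕ} {K : List ℕ} {T : List (ℕ × ℕ)}
    (hf : M.finalOk m p i0 K c = true) (ht : M.treeOk T = true)
    (hK : M.AllKilled m p V φ K) : ∀ a < M.r, φ a = 0 := by
  obtain ⟨hr, hp, hp'⟩ := ok_r hM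
  simp only [finalOk, Bool.and_eq_true, Nat.ble_eq] at hf
  obtain ⟨⟨⟨⟨hid, hi⟩, hc⟩, hb⟩, heq⟩ := hf
  simp only [treeOk, Bool.and_eq_true, List.all_eq_true, List.mem_range, Nat.ble_eq] at ht
  obtain ⟨htl, ht⟩ := ht
  have htl' : T.length + 1 = M.r := Nat.eq_of_beq_eq_true htl
  have h0 : φ 0 = 0 := by
    have hlt : M.r * i0 < M.d := Nat.mul_lt_mul_of_pos_left (by omega) hr
    have e1 : ev (M.ψ φ m) M.d (red p M.d (65536 ^ (M.r * i0))) = φ 0 := by
      rw [(red_spec hp hp' hV _ _ _).1, ev_pow _ hlt]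
      have := psi_block (m := m) (M := M) φ hr (i := i0) (a := 0) hr
      simp only [add_zero] at this
      rw [this, weq_sound hid, wP_nil, one_smul]
    rw [← e1, Nat.eq_of_beq_eq_true heq, (red_spec hp hp' hV _ _ _).1,
      (killed_comb hK (ok_of_okb hc) (by omega)).1]
  intro a
  induction a using Nat.strong_induction_on with
  | _ a ih =>
    intro ha
    cases a with
    | zero => exact h0
    | succ j =>
      obtain ⟨⟨hpar, hs⟩, heq'⟩ := ht j (by omega)
      have hI := hφ _ (by omega : (T.getD j (0, 0)).2 < M.inner.length)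
        (T.getD j (0, 0)).1 (by omega)
      rw [Nat.eq_of_beq_eq_true heq', ev_pow _ ha, ih _ (by omega) (by omega), smul_zero] at hI
      exact hI.symm

end Mod

end Cfsg.Agent.AltMod
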